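import Cfsg.Agent.OC.B

/-! A 2-group with a free action of `S₃` and exponent 4 is elementary abelian. -/

set_option autoImplicit false
set_option linter.unusedSectionVars false

namespace Cfsg.Agent.OC

open Subgroup

universe u

theorem el_step {G : Type*} [Group G] {D V : Subgroup G} [hD : D.Normal] [hV : V.Normal] {μ x : G}
    (VD : V ≤ D) (cV : ∀ v ∈ V, ∀ d ∈ D, v * d = d * v) (eV : ∀ v ∈ V, v * v = 1)
    (sq : ∀ d ∈ D, d * d ∈ V) (fp : ∀ d ∈ D, μ * d * μ⁻¹ * d⁻¹ ∈ V → d ∈ V)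
    (h3 : μ ^ 3 = 1) (h4 : x * x = 1) (h5 : x * μ * x = μ⁻¹)
    (h6 : ∀ d ∈ D, μ * d = d * μ → d = 1) (h7 : ∀ d ∈ D, (x * d) ^ 4 = 1) : ∀ d ∈ D, d * d = 1 := by
  let π := QuotientGroup.mk' V
  have k1 : ∀ g, π g = 1 ↔ g ∈ V := fun g => QuotientGroup.eq_one_iff g
  have xi : x⁻¹ = x := inv_eq_of_mul_eq_one_right h4
  have m2 : μ * μ = μ⁻¹ := eq_inv_of_mul_eq_one_left (by rw [← h3]; simp [pow_succ])
  have cj : ∀ (g : G) {d}, d ∈ D → g * d * g⁻¹ ∈ D := fun g d hd => hD.conj_mem d hd g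
  have s2 : ∀ d ∈ D, π d * π d = 1 := fun d hd => by rw [← map_mul, k1]; exact sq d hd
  have si : ∀ d ∈ D, (π d)⁻¹ = π d := fun d hd => inv_eq_of_mul_eq_one_right (s2 d hd)
  have cm : ∀ a ∈ D, ∀ b ∈ D, π a * π b = π b * π a := fun a ha b hb => by
    rw [← map_mul, ← si _ (D.mul_mem ha hb), map_mul, mul_inv_rev, si a ha, si b hb]
  have q1 : ∀ a ∈ D, ∀ b, π a = π b → b * b = a * a := fun a ha b e => by
    have hv : a⁻¹ * b ∈ V := QuotientGroup.eq.1 e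
    obtain ⟨v, rfl⟩ : ∃ v, b = a * v := ⟨a⁻¹ * b, by group⟩
    rw [inv_mul_cancel_left] at hv
    rw [mul_assoc, ← mul_assoc v, cV v hv a ha, mul_assoc, eV v hv, mul_one]
  have cV' : ∀ a ∈ D, ∀ b ∈ D, a * b * a⁻¹ * b⁻¹ ∈ V := fun a ha b hb => by
    rw [← k1]; simp only [map_mul, map_inv]; rw [cm a ha b hb]; group
  have tr : ∀ d ∈ D, π (μ⁻¹ * d * μ) = π d * π (μ * d * μ⁻¹) := fun d hd => by
    have a1 := cj μ hd
    have a2 : μ⁻¹ * d * μ ∈ D := by simpa using cj μ⁻¹ hd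
    have := (k1 _).2 (fp _ (D.mul_mem (D.mul_mem hd a1) a2) ((k1 _).1 (by
      have e : μ * (d * (μ * d * μ⁻¹) * (μ⁻¹ * d * μ)) * μ⁻¹ = (μ * d * μ⁻¹) * (μ⁻¹ * d * μ) * d := by
        calc _ = μ * d * μ⁻¹ * (μ * μ * d * (μ * μ)⁻¹) * d := by group
          _ = _ := by rw [m2, inv_inv]
      rw [e, map_mul, map_inv, mul_inv_eq_one, map_mul, map_mul, map_mul π (d * _), map_mul π d,
        ← map_mul π (μ * d * μ⁻¹), cm _ (D.mul_mem a1 a2) d hd, map_mul π (μ * d * μ⁻¹), mul_assoc (π d)])))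
    rw [map_mul, map_mul] at this
    rw [eq_inv_of_mul_eq_one_right this, ← map_mul, si _ (D.mul_mem hd a1)]
  have xm : ∀ d, π (x * (μ * d * μ⁻¹) * x) = π μ⁻¹ * π (x * d * x) * π μ := fun d => by
    rw [← map_mul, ← map_mul]
    congr 1
    calc _ = (x * μ * x) * (x⁻¹ * d * x) * (x * μ * x)⁻¹ * (x * x) := by group
      _ = _ := by rw [h5, h4, xi]; group
  have u2 : ∀ u ∈ D, π (x * u * x) = π u → u * u = 1 := fun u hu e => by
    have a1 := cj μ hu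
    have := h7 _ a1
    rw [show (x * (μ * u * μ⁻¹)) ^ 4 = (x * (μ * u * μ⁻¹) * x * (μ * u * μ⁻¹)) *
      (x * (μ * u * μ⁻¹) * x * (μ * u * μ⁻¹)) by simp only [pow_succ]; group] at this
    rw [← this]
    refine (q1 u hu _ ?_).symm
    rw [map_mul, xm, e, ← map_mul, ← map_mul, tr u hu, mul_assoc, s2 _ a1, mul_one]
  have cj2 : ∀ g u : G, u * u = 1 → g * u * g⁻¹ * (g * u * g⁻¹) = 1 := fun g u e => by
    rw [conj_mul, e]; group
  have uc : ∀ a b : G, a * a = 1 → b * b = 1 → a * b * (a * b) = 1 → a * b * a⁻¹ * b⁻¹ = 1 :=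
    fun a b ea eb e => by
      rwa [inv_eq_of_mul_eq_one_right ea, inv_eq_of_mul_eq_one_right eb, mul_assoc (a * b)]
  have um : ∀ a b, π (x * a * x) = π a → π (x * b * x) = π b → π (x * (a * b) * x) = π (a * b) :=
    fun a b ea eb => by
      rw [map_mul π a, ← ea, ← eb, ← map_mul]
      congr 1
      calc _ = x * a * (x * x) * b * x := by rw [h4]; group
        _ = _ := by group
  have bl : ∀ a ∈ D, ∀ b ∈ D, ∀ c ∈ D, a * b * c * (a * b)⁻¹ * c⁻¹ =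
      (b * c * b⁻¹ * c⁻¹) * (a * c * a⁻¹ * c⁻¹) := fun a ha b hb c hc => by
    calc _ = a * (b * c * b⁻¹ * c⁻¹) * (c * a⁻¹ * c⁻¹) := by group
      _ = _ := by rw [← cV _ (cV' b hb c hc) a ha]; group
  have br : ∀ a ∈ D, ∀ b ∈ D, ∀ c ∈ D, a * (b * c) * a⁻¹ * (b * c)⁻¹ =
      (a * b * a⁻¹ * b⁻¹) * (a * c * a⁻¹ * c⁻¹) := fun a ha b hb c hc => by
    calc _ = (a * b * a⁻¹ * b⁻¹) * (b * (a * c * a⁻¹ * c⁻¹)) * b⁻¹ := by group
      _ = _ := by rw [← cV _ (cV' a ha c hc) b hb]; group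
  have b0 : ∀ u ∈ D, π (x * u * x) = π u → u * (μ * u * μ⁻¹) * u⁻¹ * (μ * u * μ⁻¹)⁻¹ = 1 := fun u hu e =>
    uc _ _ (u2 u hu e) (cj2 _ _ (u2 u hu e)) (by
      rw [q1 _ (by simpa using cj μ⁻¹ hu) _ ((tr u hu).trans (map_mul π _ _).symm)]
      simpa using cj2 μ⁻¹ _ (u2 u hu e))
  have b1 : ∀ a ∈ D, ∀ b ∈ D, π (x * a * x) = π a → π (x * b * x) = π b →
      a * (μ * b * μ⁻¹) * a⁻¹ * (μ * b * μ⁻¹)⁻¹ = 1 := fun a ha b hb ea eb => by
    have a1 := cj μ ha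
    have a2 := cj μ hb
    have s := b0 _ (D.mul_mem ha hb) (um a b ea eb)
    rw [show μ * (a * b) * μ⁻¹ = μ * a * μ⁻¹ * (μ * b * μ⁻¹) by group, bl a ha b hb _ (D.mul_mem a1 a2), br b hb _ a1 _ a2, br a ha _ a1 _ a2, b0 a ha ea,
      b0 b hb eb, mul_one, one_mul] at s
    have c0 := uc a b (u2 a ha ea) (u2 b hb eb) (u2 _ (D.mul_mem ha hb) (um a b ea eb))
    have hv : (b * (μ * b * μ⁻¹))⁻¹ * (μ⁻¹ * b * μ) ∈ V :=
      QuotientGroup.eq.1 ((map_mul π _ _).trans (tr b hb).symm)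
    refine h6 _ (VD (cV' a ha _ a2)) (mul_inv_eq_iff_eq_mul.1 ?_)
    have e1 : μ * (a * (μ * b * μ⁻¹) * a⁻¹ * (μ * b * μ⁻¹)⁻¹) * μ⁻¹ = (μ * a * μ⁻¹) * (b * (μ * b * μ⁻¹) *
        ((b * (μ * b * μ⁻¹))⁻¹ * (μ⁻¹ * b * μ))) * (μ * a * μ⁻¹)⁻¹ * (b * (μ * b * μ⁻¹) *
        ((b * (μ * b * μ⁻¹))⁻¹ * (μ⁻¹ * b * μ)))⁻¹ := by
      calc _ = (μ * a * μ⁻¹) * (μ * μ * b * (μ * μ)⁻¹) * (μ * a * μ⁻¹)⁻¹ * (μ * μ * b * (μ * μ)⁻¹)⁻¹ := by group
        _ = _ := by rw [m2]; group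
    rw [e1, br _ a1 _ (D.mul_mem hb a2) _ (VD hv), br _ a1 _ hb _ a2, ← cV _ hv _ a1, mul_inv_cancel_right,
      mul_inv_cancel, mul_one, show μ * a * μ⁻¹ * (μ * b * μ⁻¹) * (μ * a * μ⁻¹)⁻¹ * (μ * b * μ⁻¹)⁻¹ =
        μ * (a * b * a⁻¹ * b⁻¹) * μ⁻¹ by group, c0, ← inv_eq_of_mul_eq_one_right s]
    group
  intro d hd
  have x1 : x * d * x ∈ D := by simpa [xi] using cj x hd
  have xx : x * (x * d * x) * x = d := by
    calc _ = (x * x) * d * (x * x) := by group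
      _ = _ := by rw [h4]; group
  have xp : ∀ a b, π (x * (a * b) * x) = π (x * a * x) * π (x * b * x) := fun a b => by
    rw [← map_mul]
    congr 1
    calc _ = x * a * (x * x) * b * x := by rw [h4]; group
      _ = _ := by group
  have he := D.mul_mem hd x1
  have ee : π (x * (d * (x * d * x)) * x) = π (d * (x * d * x)) := by
    rw [xp, xx, map_mul π d, cm d hd _ x1]
  have a1 := cj μ he
  have ha := D.mul_mem hd a1
  have ea : π (x * (d * (μ * (d * (x * d * x)) * μ⁻¹)) * x) = π (d * (μ * (d * (x * d * x)) * μ⁻¹)) := by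
    rw [xp, xm, ee, ← map_mul π μ⁻¹, ← map_mul π (μ⁻¹ * _), tr _ he, map_mul π d (x * d * x), cm d hd _ x1,
      ← mul_assoc, ← mul_assoc, s2 _ x1, one_mul, ← map_mul]
  have c1 := b1 _ ha _ he ea ee
  have c2 := u2 _ ha ea
  have c3 := cj2 μ _ (u2 _ he ee)
  generalize μ * (d * (x * d * x)) * μ⁻¹ = f at c1 c2 c3
  have c4 : d * f = f * d := by
    calc d * f = (d * f * f * (d * f)⁻¹ * f⁻¹) * f * d := by group
      _ = _ := by rw [c1, one_mul]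
  calc d * d = d * d * (f * f) := by rw [c3, mul_one]
    _ = d * (d * f) * f := by group
    _ = _ := by rw [← c2]; nth_rewrite 1 [c4]; group

theorem el_aux (n : ℕ) : ∀ (G : Type u) [Group G] [Finite G] (D : Subgroup G) [D.Normal] (μ x : G),
    Nat.card G = n → IsPGroup 2 D → μ ^ 3 = 1 → x * x = 1 → x * μ * x = μ⁻¹ →
    (∀ d ∈ D, μ * d = d * μ → d = 1) → (∀ d ∈ D, (x * d) ^ 4 = 1) → ∀ d ∈ D, d * d = 1 := by
  induction n using Nat.strong_induction_on with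
  | _ n ih =>
  intro G _ _ D hN μ x hn hD h3 h4 h5 h6 h7
  let V : Subgroup G :=
    { carrier := {v | v ∈ D ∧ (∀ d ∈ D, v * d = d * v) ∧ v * v = 1}
      one_mem' := ⟨one_mem _, by simp, by simp⟩
      mul_mem' := fun {a b} ha hb => ⟨mul_mem ha.1 hb.1,
        fun d hd => by rw [mul_assoc, hb.2.1 d hd, ← mul_assoc, ha.2.1 d hd, mul_assoc],
        by rw [mul_assoc, ← mul_assoc b, hb.2.1 a ha.1, mul_assoc, hb.2.2, mul_one, ha.2.2]⟩
      inv_mem' := fun {a} ha => by rw [inv_eq_of_mul_eq_one_right ha.2.2]; exact ha }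
  haveI hV : V.Normal := ⟨fun v hv g => ⟨hN.conj_mem v hv.1 g, fun d hd => by
      have := hv.2.1 _ (hN.conj_mem' d hd g)
      calc _ = g * (v * (g⁻¹ * d * g)) * g⁻¹ := by group
        _ = _ := by rw [this]; group, by rw [conj_mul, hv.2.2]; group⟩⟩
  by_cases h0 : D = ⊥
  · intro d hd
    rw [h0, mem_bot] at hd
    simp [hd]
  have V0 : V ≠ ⊥ := by
    haveI := (nontrivial_iff_ne_bot D).2 h0
    obtain ⟨⟨z, hz⟩, z1⟩ := @exists_ne _ hD.center_nontrivial 1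
    obtain ⟨k, hk⟩ := (IsPGroup.iff_orderOf.1 hD) z
    have k0 : k ≠ 0 := by
      rintro rfl
      exact z1 (Subtype.ext (orderOf_eq_one_iff.1 hk))
    obtain ⟨k, rfl⟩ := Nat.exists_eq_succ_of_ne_zero k0
    refine (ne_bot_iff_exists_ne_one).2 ⟨⟨((z ^ 2 ^ k : D) : G), (z ^ 2 ^ k).2, fun d hd =>
      (congrArg Subtype.val (mem_center_iff.1 (pow_mem hz (2 ^ k)) ⟨d, hd⟩)).symm, ?_⟩, fun e => ?_⟩
    · rw [← coe_mul, ← pow_add, ← mul_two, ← pow_succ, ← hk, pow_orderOf_eq_one, coe_one]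
    · have : z ^ 2 ^ k = 1 := Subtype.ext (congrArg (fun y : V => (y : G)) e)
      have := Nat.le_of_dvd (by positivity) (orderOf_dvd_of_pow_eq_one this)
      rw [hk, pow_succ] at this
      have : 0 < 2 ^ k := by positivity
      omega
  have fp : ∀ d ∈ D, μ * d * μ⁻¹ * d⁻¹ ∈ V → d ∈ V := fun d hd hv => by
    obtain ⟨v, e⟩ : ∃ v, μ * d * μ⁻¹ = v * d := ⟨μ * d * μ⁻¹ * d⁻¹, by group⟩
    rw [e, mul_inv_cancel_right] at hv
    have hw := hV.conj_mem v hv μ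
    have e2 : μ * (v * d) * μ⁻¹ = (μ * v * μ⁻¹ * v) * d := by rw [← conj_mul, e]; group
    have e3 : μ * ((μ * v * μ⁻¹ * v) * d) * μ⁻¹ = d := by
      rw [← e2, ← e]
      calc _ = (μ * μ * μ) * d * (μ * μ * μ)⁻¹ := by group
        _ = _ := by rw [← pow_three', h3]; group
    have hw' := V.mul_mem hw hv
    generalize μ * v * μ⁻¹ * v = w at e2 e3 hw'
    have e4 : d * (v * d) * (w * d) = v * w * d ^ 3 := by
      rw [← mul_assoc d, ← hv.2.1 d hd, mul_assoc v, mul_assoc v, ← mul_assoc (d * d),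
        ← hw'.2.1 _ (D.mul_mem hd hd)]
      simp only [pow_three, mul_assoc]
    have e5 : v * d * (w * d) * d = v * w * d ^ 3 := by
      rw [mul_assoc v, ← mul_assoc d, ← hw'.2.1 d hd]
      simp only [pow_three, mul_assoc]
    have e6 := h6 _ (D.mul_mem (D.mul_mem hv.1 hw'.1) (D.pow_mem hd 3)) (mul_inv_eq_iff_eq_mul.1 (by
      rw [← e4, ← conj_mul, ← conj_mul, e, e2, e3, e4, e5]))
    have e7 : d ^ 3 ∈ V := by
      rw [eq_inv_of_mul_eq_one_right e6]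
      exact V.inv_mem (V.mul_mem hv hw')
    obtain ⟨k, hk⟩ := (IsPGroup.iff_orderOf.1 hD) ⟨d, hd⟩
    rw [← orderOf_coe] at hk
    exact (zpowers_le.2 e7) (mem_zpowers_pow_iff.2 (by
      rw [show orderOf d = 2 ^ k from hk]; exact Nat.Coprime.pow_right k (by norm_num)))
  refine el_step (V := V) (fun v hv => hv.1) (fun v hv => hv.2.1) (fun v hv => hv.2.2) (fun d hd => ?_) fp
    h3 h4 h5 h6 h7
  haveI := hN.map (QuotientGroup.mk' V) (QuotientGroup.mk'_surjective V)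
  refine (QuotientGroup.eq_one_iff _).1 (ih _ ?_ (G ⧸ V) (D.map (QuotientGroup.mk' V)) μ x rfl (hD.map _)
    (by rw [← QuotientGroup.mk_pow, h3]; rfl) (by rw [← QuotientGroup.mk_mul, h4]; rfl)
    (by rw [← QuotientGroup.mk_mul, ← QuotientGroup.mk_mul, h5]; rfl) ?_ ?_ d ⟨d, hd, rfl⟩)
  · rw [← hn, card_eq_card_quotient_mul_card_subgroup V]
    exact lt_mul_of_one_lt_right Nat.card_pos ((one_lt_card_iff_ne_bot V).2 V0)
  · rintro _ ⟨c, hc, rfl⟩ e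
    refine (QuotientGroup.eq_one_iff _).2 (fp c hc ((QuotientGroup.eq_one_iff _).1 ?_))
    simp only [QuotientGroup.mk_mul, QuotientGroup.mk_inv]
    rw [show (μ : G ⧸ V) * (c : G ⧸ V) = c * μ from e]
    group
  · rintro _ ⟨c, hc, rfl⟩
    exact (congrArg (QuotientGroup.mk' V) (h7 c hc) :)

variable {G : Type u} [Group G] [Finite G]

theorem EL {D : Subgroup G} (hD : IsPGroup 2 D) {μ x : G} (h1 : μ ∈ normalizer (D : Set G))
    (h2 : x ∈ normalizer (D : Set G)) (h3 : μ ^ 3 = 1) (h4 : x * x = 1) (h5 : x * μ * x = μ⁻¹)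
    (h6 : ∀ d ∈ D, μ * d = d * μ → d = 1) (h7 : ∀ d ∈ D, (x * d) ^ 4 = 1) : ∀ d ∈ D, d * d = 1 :=
  fun d hd => congrArg Subtype.val (el_aux _ (normalizer (D : Set G)) (D.subgroupOf _) ⟨μ, h1⟩ ⟨x, h2⟩ rfl
    (hD.comap_of_injective _ (subtype_injective _)) (Subtype.ext h3) (Subtype.ext h4) (Subtype.ext h5)
    (fun c hc e => Subtype.ext (h6 c hc (congrArg Subtype.val e))) (fun c hc => Subtype.ext (h7 c hc))
    ⟨d, le_normalizer hd⟩ hd)

end Cfsg.Agent.OC
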