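import Cfsg.Agent.OC.B
import Cfsg.Agent.OC.EL
import Cfsg.Agent.OC.PG
import Cfsg.Agent.H3.BaerSuzuki
import Cfsg.Agent.H3.Misc

/-! Piece A2: 2-local subgroups of CIT-groups with an offender. -/

set_option autoImplicit false
set_option linter.unusedSectionVars false

namespace Cfsg.Agent.OC

open Subgroup Cfsg.Agent.FT Cfsg.Agent.MC

universe u
variable {G : Type u} [Group G] [Finite G] {u d x : G} {H T D V : Subgroup G}

theorem a2_one (hu : Odd (orderOf u)) (h : u ^ 4 = 1) : u = 1 :=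
  orderOf_eq_one_iff.1 ((hu.coprime_two_right.pow_right 2).eq_one_of_dvd (orderOf_dvd_of_pow_eq_one h))

theorem a2_odd (hc : CIT G) (h : u ^ 4 ≠ 1) : Odd (orderOf u) :=
  Nat.not_even_iff_odd.1 fun e => h (hc u e)

theorem a2_four (hc : CIT G) (hT : IsPGroup 2 T) (h : d ∈ T) : d ^ 4 = 1 := by
  by_contra e
  obtain ⟨n, hn⟩ := hT ⟨d, h⟩
  refine e ?_
  rw [orderOf_eq_one_iff.1 (((a2_odd hc e).coprime_two_right.pow_right n).eq_one_of_dvd
    (orderOf_dvd_of_pow_eq_one (congrArg Subtype.val hn))), one_pow]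

/-- in a CIT-group elements of odd order act freely on 2-elements -/
theorem a2_free (hc : CIT G) (hu : Odd (orderOf u)) (h1 : u ≠ 1) (hd : d ^ 4 = 1) (e : u * d = d * u) :
    d = 1 := by
  have c : Commute u d := e
  have o := a2_odd hc (u := u * d) fun k => h1 (a2_one hu (by rwa [c.mul_pow, hd, mul_one] at k))
  have k : d ^ (orderOf (u * d) * orderOf u) = 1 := by
    have := pow_orderOf_eq_one (u * d)
    rw [c.mul_pow] at this
    rw [pow_mul, eq_inv_of_mul_eq_one_right this, inv_pow, ← pow_mul, mul_comm, pow_mul,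
      pow_orderOf_eq_one, one_pow, inv_one]
  exact a2_one ((o.mul hu).of_dvd_nat (orderOf_dvd_of_pow_eq_one k)) hd

theorem a2_dvd (hc : CIT G) (hV : IsPGroup 2 V) (hu : Odd (orderOf u)) (hn : u ∈ 𝐍(V)) :
    orderOf u ∣ ♯V - 1 := by
  rw [← Nat.card_zpowers]
  refine SemiReg.card_dvd (fun x hx x1 => eq_bot_iff.2 fun v hv => a2_free hc
    (hu.of_dvd_nat (orderOf_dvd_of_mem_zpowers hx)) x1 (a2_four hc hV hv.1)
    (mem_cent1_iff.1 hv.2).symm) ((zpowers_le (G := G)).2 hn)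

/-- the centralizer of an involution inverting an element of odd order -/
theorem a2_half (hc : CIT G) (hV : IsPGroup 2 V) (cV : ∀ a ∈ V, ∀ b ∈ V, a * b = b * a)
    (hu : Odd (orderOf u)) (h1 : u ≠ 1) (hn : u ∈ 𝐍(V)) (e : x * u * x⁻¹ = u⁻¹) :
    ♯(V ⊓ 𝐂[x] : Subgroup G) ^ 2 ≤ ♯V := by
  have h2 : cj u (V ⊓ 𝐂[x]) ≤ V := cj_le_iff.2 fun v hv => conj_mem_of_mem_normalizer hn hv.1
  have h3 : (V ⊓ 𝐂[x]) ⊓ cj u (V ⊓ 𝐂[x]) = ⊥ := eq_bot_iff.2 fun v hv => by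
    have a1 : Commute v x := mem_cent1_iff.1 hv.1.2
    have a2 : Commute (u⁻¹ * v * u) x := mem_cent1_iff.1 (mem_cj.1 hv.2).2
    have a3 : Commute v (u * x * u⁻¹) := by
      simpa [mul_assoc] using a2.map (MulAut.conj u)
    have a4 := a3.mul_right a1.inv_right
    rw [show u * x * u⁻¹ * x⁻¹ = u * (x * u * x⁻¹)⁻¹ by group, e, inv_inv, ← sq] at a4
    refine a2_free hc (hu.of_dvd_nat (orderOf_pow_dvd 2)) (fun k => h1 (a2_one hu ?_))
      (a2_four hc hV hv.1.1) a4.symm.eq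
    rw [show 4 = 2 * 2 from rfl, pow_mul, k, one_pow]
  have h4 := card_sup_of_inf_eq_bot (le_trans (fun a ha => (mem_cent_iff (A := V ⊓ 𝐂[x])).2
    fun b hb => cV b hb.1 a (h2 ha)) (cent_le_norm _)) h3
  rw [card_cj] at h4
  rw [sq, ← h4]
  exact card_le_of_le' (sup_le inf_le_left h2)

/-- the solvable case -/
theorem a2_sol (hc : CIT G) (hs : Group.IsSolvable H) (hT : Syl 2 T H) (hD : core {2} H ≠ ⊥)
    (hn : ¬ T ≤ core {2} H) : (core {2} H).relIndex T = 2 := by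
  have nD := core_nrm {2} H
  have pD := core_isPGroup (p := 2) H
  have DT := core_le_syl hT
  have nE := core2_nrm {2} {2}ᶜ H
  obtain ⟨U, hU⟩ := exists_hall {2}ᶜ (isSolvable_of_le nE.le hs)
  have e1 := hU.frattini (isSolvable_of_le nE.le hs) nE
  have e2 : core2 {2} {2}ᶜ H = core {2} H ⊔ U := by
    rw [sup_comm, hU.sup_eq_of_relIndex (core_le_core2 _ _ _) (piNum_relIndex_core2 _ _ _)]
  have U0 : U ≠ ⊥ := fun e => by
    have h0 : core {2}ᶜ (bar (core {2} H) H) = ⊥ := by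
      rw [← bar_core2, e2, e, sup_bot_eq, bar_self]
    have := cent_pcore_le (isSolvable_bar hs _) h0
    rw [core_bar_core, cent_bot, inf_top_eq, le_bot_iff, bar_eq_bot_iff nD.norm] at this
    exact hn (hT.le.trans this)
  rw [e2, sup_assoc, sup_eq_right.2 (le_inf (hU.le.trans nE.le) le_normalizer)] at e1
  have oU : ∀ u ∈ U, Odd (orderOf u) := fun u hu => Nat.odd_iff.2 (by
    have := (piNum_compl_singleton Nat.prime_two).1 (hU.piG.piE hu)
    omega)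
  have UH := hU.le.trans nE.le
  generalize core {2} H = D at *
  obtain ⟨u, hu, u1⟩ := exists_ne_one_of_ne_bot U0
  have mV := fun x => mem_om_of_comm (p := 2) (x := x) (ctr_comm D)
  have nV : H ≤ 𝐍(om 2 𝐙(D)) := le_normalizer_om 2 (le_normalizer_ctr nD.norm)
  obtain ⟨v, hv, v1⟩ := exists_ne_one_of_ne_bot (om_ne_bot_of_isPGroup
    (isPGroup_of_le inf_le_left pD) (ctr_ne_bot (isNilpotent_of_isPGroup pD) hD))
  have VD : om 2 𝐙(D) ≤ D := (om_le _ _).trans inf_le_left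
  have iv : ∀ n ∈ T, n ∈ 𝐍(U) → n ≠ 1 → n * u * n⁻¹ = u⁻¹ := fun n hn nU n1 => by
    have n4 := a2_four hc hT.isPGroup hn
    have fr : ∀ k ∈ T, k ≠ 1 → ∀ u ∈ U, u * k = k * u → u = 1 := fun k hk k1 u hu e => by
      by_contra u1
      exact k1 (a2_free hc (oU u hu) u1 (a2_four hc hT.isPGroup hk) e)
    refine H3.inverts_of_fixedPointFree (by_contra fun n2 => ?_) nU
      (fun u hu e => fr n hn n1 u hu e.symm) hu
    obtain ⟨w, hw, e⟩ := FM (V := om 2 𝐙(D)) (U := U) (k := n) (n := 4)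
      (fun x hx y hy => mem_cent_iff.1 ((mV y).1 hy).1.2 x (VD hx)) (UH.trans nV) (nV (hT.le hn)) nU
      (coprime_of_isPGroup (isPGroup_of_le VD pD) hU.piG).symm (by norm_num)
      (fun i i0 i4 => fr _ (pow_mem hn i) fun e => by
        interval_cases i
        · exact n1 (by simpa using e)
        · exact n2 (sq n ▸ e)
        · exact n1 (by rwa [pow_succ, e, one_mul] at n4))
      ⟨v, hv, u, hu, fun e => u1 (fr v (DT (VD hv)) v1 u hu e)⟩
    exact e (by rw [n4, a2_four hc hT.isPGroup (mul_mem (DT (VD hw)) hn)])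
  have rep : ∀ t ∈ T, t ∉ D → ∃ d ∈ D, d⁻¹ * t ∈ 𝐍(U) ∧ d⁻¹ * t * u * (d⁻¹ * t)⁻¹ = u⁻¹ :=
    fun t ht tD => by
    obtain ⟨d, hd, n, hn, rfl⟩ := (H2.mem_sup_of_le_normalizer' (inf_le_left.trans nD.norm)).1
      (e1.ge (hT.le ht))
    refine ⟨d, hd, by simpa using hn.2, iv _ (mul_mem (inv_mem (DT hd)) ht) (by simpa using hn.2) ?_⟩
    intro e
    exact tD (by rw [eq_of_inv_mul_eq_one e] at hd; exact hd)
  obtain ⟨a, ha, aD⟩ := SetLike.not_le_iff_exists.1 hn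
  refine relIndex_eq_two_iff.2 ⟨a, ha, fun b hb => ?_⟩
  by_cases bD : b ∈ D
  · exact .inr ⟨bD, fun k => aD ((D.mul_mem_cancel_left bD).1 k)⟩
  refine .inl ⟨?_, bD⟩
  obtain ⟨d, hd, -, k1⟩ := rep a ha aD
  obtain ⟨d', hd', -, k2⟩ := rep b hb bD
  have : d'⁻¹ * b * (d⁻¹ * a) = 1 := a2_free hc (oU u hu) u1 (a2_four hc hT.isPGroup
    (mul_mem (mul_mem (inv_mem (DT hd')) hb) (mul_mem (inv_mem (DT hd)) ha))) (by
      generalize d'⁻¹ * b = y at *
      generalize d⁻¹ * a = z at *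
      rw [eq_comm, ← mul_inv_eq_iff_eq_mul]
      calc y * z * u * (y * z)⁻¹ = y * (z * u * z⁻¹) * y⁻¹ := by group
        _ = (y * u * y⁻¹)⁻¹ := by rw [k1]; group
        _ = u := by rw [k2, inv_inv])
  rw [show b * a = d' * (d'⁻¹ * b * (d⁻¹ * a)) * (a⁻¹ * d * a⁻¹⁻¹) by group, this, mul_one]
  exact mul_mem hd' (conj_mem_of_mem_normalizer (nD.norm (hT.le (inv_mem ha))) hd)

/-- the non-solvable case -/
theorem a2_l2 (hc : CIT G) (hT : Syl 2 T H) (hL : L2e (H ⧸ pCore 2 H)) :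
    Lc H (core {2} H) ((core {2} H).relIndex T) ∧
    (∀ V : Subgroup G, IsPGroup 2 V → V ≠ ⊥ → H ≤ 𝐍(V) → (core {2} H).relIndex T ^ 2 ≤ ♯V) ∧
    ∀ x ∈ H, x ∉ core {2} H → x * x = 1 → ∃ μ ∈ H, μ ≠ 1 ∧ μ ^ 3 = 1 ∧ x * μ * x = μ⁻¹ := by
  obtain ⟨F, _, _, _, h4, ⟨e⟩⟩ := hL
  obtain ⟨φ, sj, ker⟩ : ∃ φ : H →* L2 F, Function.Surjective φ ∧ ∀ h : H, φ h = 1 ↔ (h : G) ∈ core {2} H :=
    ⟨e.toMonoidHom.comp (QuotientGroup.mk' _), e.surjective.comp (QuotientGroup.mk'_surjective _),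
      fun h => by simp [core_singleton_eq]⟩
  have pD := core_isPGroup (p := 2) H
  have DT := core_le_syl hT
  have DH := core_le {2} H
  generalize core {2} H = D at *
  obtain ⟨k, -, hk⟩ := FiniteField.card F 2
  have ev : 2 ∣ Fintype.card F := hk ▸ dvd_pow_self 2 k.ne_zero
  have g1 : Nat.gcd 2 (Fintype.card F - 1) = 1 := Nat.coprime_two_left.2 (Nat.odd_iff.2 (by omega))
  have lift : ∀ g : H, Odd (orderOf (φ g)) → φ g ≠ 1 → orderOf (g : G) = orderOf (φ g) := fun g o g1 => by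
    have o1 := a2_odd hc (u := (g : G)) fun k => g1 (a2_one o (by
      rw [← map_pow, show g ^ 4 = 1 from Subtype.ext k, map_one]))
    refine Nat.dvd_antisymm (orderOf_dvd_of_pow_eq_one (a2_one (o1.of_dvd_nat (orderOf_pow_dvd _))
      (a2_four hc pD ((ker (g ^ _)).1 (by rw [map_pow, pow_orderOf_eq_one]))))) ?_
    rw [orderOf_coe]
    exact orderOf_map_dvd φ g
  have hq : D.relIndex T = Fintype.card F := by
    have c1 := F0_card (F := F)
    have c2 : ♯H = ♯D * Nat.card (L2 F) := by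
      rw [← card_mul_relIndex DH, relIndex, show D.subgroupOf H = φ.ker from
        SetLike.ext fun h => (ker h).symm, index_ker, MonoidHom.range_eq_top.2 sj, card_top]
    rw [← card_mul_relIndex hT.le, ← card_mul_relIndex DT, mul_assoc, ← one_mul (Nat.card (L2 F)),
      ← g1, c1] at c2
    have c3 := Nat.eq_of_mul_eq_mul_left (card_pos' D) c2
    obtain ⟨n, hn⟩ := (Nat.dvd_prime_pow Nat.prime_two).1 ((relIndex_dvd_card' D T).trans
      (IsPGroup.iff_card.1 hT.isPGroup).choose_spec.dvd)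
    refine Nat.dvd_antisymm (Nat.Coprime.dvd_of_dvd_mul_right ?_ ⟨_, c3.symm⟩)
      (Nat.Coprime.dvd_of_dvd_mul_right ?_ ⟨_, c3⟩)
    · rw [hn.2]
      refine (Nat.coprime_two_left.2 (Nat.Even.sub_odd (Nat.one_le_pow _ _ (by omega))
        ((even_iff_two_dvd.2 ev).pow_of_ne_zero two_ne_zero) odd_one)).pow_left _
    · rw [hk]
      exact ((Nat.Prime.coprime_iff_not_dvd Nat.prime_two).2 hT.not_dvd).pow_left _
  obtain ⟨⟨y, hy⟩, z, hz⟩ := F3e (F := F)
  rw [g1, one_mul] at hy hz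
  refine ⟨⟨F, _, _, φ, ‹_›, hq ▸ h4, hq.symm, sj, ker⟩, fun V pV V0 nV => ?_, fun x hx xD xx => ?_⟩
  · have dv : ∀ w : L2 F, Odd (orderOf w) → 1 < orderOf w → orderOf w ∣ ♯V - 1 := fun w o o1 => by
      obtain ⟨g, rfl⟩ := sj w
      have := lift g o fun e => by simp [e] at o1
      rw [← this] at o ⊢
      exact a2_dvd hc pV o (nV g.2)
    have d1 := dv y (Nat.odd_iff.2 (by omega)) (by omega)
    have d2 := dv z (Nat.odd_iff.2 (by omega)) (by omega)
    have := Nat.le_of_dvd (by have := (one_lt_card_iff_ne_bot V).2 V0; omega)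
      (Nat.Coprime.mul_dvd_of_dvd_of_dvd (by
        rw [hz, ← hy, add_assoc, Nat.coprime_self_add_right]
        exact Nat.coprime_two_right.2 (Nat.odd_iff.2 (by omega))) d1 d2)
    rw [hq, ← hy]
    rw [hz, ← hy] at this
    have := card_pos' V
    zify [this] at *
    nlinarith
  · let Q : Sylow 2 (L2 F) := default
    obtain ⟨-, w, -, -, -, -, w2, -, wN⟩ := F9 h4 Q
    obtain ⟨s, sQ, s1, o3⟩ := F7 Q w2 wN
    have ox : orderOf (φ ⟨x, hx⟩) = 2 := orderOf_eq_prime (by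
      rw [sq, ← map_mul]; exact (congrArg φ (Subtype.ext xx)).trans φ.map_one) fun e => xD ((ker _).1 e)
    have ss : s * s = 1 := by
      obtain ⟨θ, t1, t2, -⟩ := F4 Q
      refine t1.injOn (mul_mem sQ sQ) (one_mem _) ?_
      rw [t2 s sQ s sQ, CharTwo.add_self_eq_zero, ← mul_one 1, t2 1 (one_mem _) 1 (one_mem _),
        CharTwo.add_self_eq_zero]
    obtain ⟨a, ha⟩ := isConj_iff.1 (F8.1 _ _ ox (orderOf_eq_prime (sq s ▸ ss) s1))
    obtain ⟨b, hb⟩ := isConj_iff.1 (F8.1 _ _ ox (orderOf_eq_prime (sq w ▸ w2)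
      fun e => wN (by rw [e]; exact one_mem _)))
    obtain ⟨g, hg⟩ := sj (a⁻¹ * b)
    have o : orderOf (φ (⟨x, hx⟩ * (g * ⟨x, hx⟩ * g⁻¹))) = 3 := by
      rw [← o3, ← ha, ← hb, ← (MulAut.conj a).orderOf_eq]
      simp [hg, mul_assoc]
    have o' := lift _ (by rw [o]; decide) fun e => by simp [e] at o
    rw [o] at o'
    refine ⟨_, (⟨x, hx⟩ * (g * ⟨x, hx⟩ * g⁻¹) : H).2, fun e => by simp [e] at o',
      o' ▸ pow_orderOf_eq_one _, eq_inv_of_mul_eq_one_left ?_⟩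
    change x * (x * (g * x * (g : G)⁻¹)) * x * (x * (g * x * (g : G)⁻¹)) = 1
    rw [← mul_assoc x x, xx, one_mul, mul_assoc, ← mul_assoc x x, xx, one_mul, conj_mul, xx]
    simp

theorem A2 (hc : CIT G) {H T A : Subgroup G} (hD : pCore 2 H ≠ ⊥)
    (hi : ¬ Group.IsSolvable H → L2e (H ⧸ pCore 2 H)) (hT : FT.Syl 2 T H) (hn : ¬ H ≤ normalizer (T : Set G))
    (hA : A ≤ T) (eA : ∀ x ∈ A, x * x = 1)
    (mA : ∀ B ≤ T, (∀ x ∈ B, x * x = 1) → Nat.card B ≤ Nat.card A) (hAD : ¬ A ≤ (pCore 2 H).map H.subtype) :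
    ∃ q : ℕ, Cf ((pCore 2 H).map H.subtype) A q ∧ T = (pCore 2 H).map H.subtype ⊔ A ∧
      ((q = 2 ∧ ∃ ρ ∈ H, orderOf ρ = 3) ∨ Lc H ((pCore 2 H).map H.subtype) q) := by
  have odd : ∀ x ∈ A, x ∉ (pCore 2 H).map H.subtype →
      ∃ u ∈ H, u ≠ 1 ∧ Odd (orderOf u) ∧ x * u * x⁻¹ = u⁻¹ := fun x hx xD => by
    obtain ⟨u, u1, o, e⟩ := H3.exists_inverted_odd (t := (⟨x, hT.le (hA hx)⟩ : H))
      (orderOf_eq_prime (Subtype.ext ((sq x).trans (eA x hx))) fun e => xD (by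
        rw [show x = 1 from congrArg Subtype.val e]; exact one_mem _))
      fun N hN pN m => xD ⟨_, (le_sSup (a := N) ⟨hN, pN⟩ : N ≤ pCore 2 H) m, rfl⟩
    exact ⟨u, u.2, fun e => u1 (Subtype.ext e), by rwa [orderOf_coe], congrArg Subtype.val e⟩
  have D0 : core {2} H ≠ ⊥ := by
    rw [core_singleton_eq]
    exact fun e => hD ((map_eq_bot_iff_of_injective _ H.subtype_injective).1 e)
  rw [← core_singleton_eq] at *
  have sol := fun hs => a2_sol hc hs hT D0 fun e => hAD (hA.trans e)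
  have l2 := fun hs => a2_l2 hc hT (hi hs)
  have nD := core_nrm {2} H
  have pD := core_isPGroup (p := 2) H
  have DT := core_le_syl hT
  generalize core {2} H = D at *
  have cT := card_mul_relIndex DT
  generalize D.relIndex T = q at *
  have mV := fun x => mem_om_of_comm (p := 2) (x := x) (ctr_comm D)
  have nV : H ≤ 𝐍(om 2 𝐙(D)) := le_normalizer_om 2 (le_normalizer_ctr nD.norm)
  have V0 := om_ne_bot_of_isPGroup
    (isPGroup_of_le inf_le_left pD) (ctr_ne_bot (isNilpotent_of_isPGroup pD) D0)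
  have VD : om 2 𝐙(D) ≤ D := (om_le _ _).trans inf_le_left
  generalize om 2 𝐙(D) = V at *
  have cV : ∀ d ∈ D, ∀ v ∈ V, d * v = v * d := fun d hd v hv => mem_cent_iff.1 ((mV v).1 hv).1.2 d hd
  have pV := isPGroup_of_le VD pD
  have half : ∀ x ∈ A, x ∉ D → ♯(V ⊓ 𝐂[x] : Subgroup G) ^ 2 ≤ ♯V := fun x hx xD =>
    let ⟨u, uH, u1, o, e⟩ := odd x hx xD
    a2_half hc pV (fun a ha => cV a (VD ha)) o u1 (nV uH) e
  have sub : ∀ x ∈ A, V ⊓ A ≤ V ⊓ 𝐂[x] := fun x hx v hv =>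
    ⟨hv.1, mem_cent1_iff.2 (comm_of_sq eA hv.2 hx)⟩
  obtain ⟨x, hx, xD⟩ := SetLike.not_le_iff_exists.1 hAD
  have xH := hT.le (hA hx)
  have q1 : q ^ 2 ≤ ♯V := by
    by_cases hs : Group.IsSolvable H
    · have := ((one_lt_card_iff_ne_bot _).2 (inf_ctr_ne_bot (isNilpotent_of_isPGroup hT.isPGroup)
        ⟨VD.trans DT, hT.le.trans nV⟩ V0)).trans_le
        (card_le_of_le' (inf_le_inf_left V (cent_le_cent1 (hA hx))))
      rw [sol hs]
      exact (Nat.pow_le_pow_left this 2).trans (half x hx xD)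
    · exact (l2 hs).2.1 V pV V0 nV
  have c1 := card_sup_mul_card_inf (H := A ⊓ D) (K := V) ((inf_le_right.trans nD.le).trans nV)
  rw [inf_assoc, inf_eq_right.2 VD, inf_comm A V] at c1
  have c2 := card_sup_mul_card_inf (H := A) (K := D) ((hA.trans hT.le).trans nD.norm)
  have c3 := mA (A ⊓ D ⊔ V) (sup_le (inf_le_right.trans DT) (VD.trans DT)) fun y hy => by
    obtain ⟨a, ha, v, hv, rfl⟩ := (H2.mem_sup_of_le_normalizer
      ((inf_le_right.trans nD.le).trans nV)).1 hy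
    rw [mul_assoc, ← mul_assoc v, ← cV a ha.2 v hv, mul_assoc, ← sq v, ((mV v).1 hv).2, mul_one,
      eA a ha.1]
  have c4 := card_le_of_le' (sup_le hA DT)
  have c5 := (Nat.pow_le_pow_left (card_le_of_le' (sub x hx)) 2).trans (half x hx xD)
  have p1 := card_pos' D
  have p2 := card_pos' (A ⊓ D)
  have p3 := card_pos' V
  have c6 : ♯A ≤ q * ♯(A ⊓ D : Subgroup G) := Nat.le_of_mul_le_mul_right (by nlinarith) p1
  have c7 : ♯V ≤ q * ♯(V ⊓ A : Subgroup G) := Nat.le_of_mul_le_mul_right (by nlinarith) p2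
  have c8 : ♯V = q ^ 2 := le_antisymm (Nat.le_of_mul_le_mul_right (by nlinarith) p3) q1
  have q0 : 0 < q := by
    rw [c8] at p3
    exact Nat.pos_of_ne_zero fun e => by simp [e] at p3
  have c9 : ♯(V ⊓ A : Subgroup G) = q := le_antisymm (by nlinarith) (by nlinarith)
  have c10 : ♯A = q * ♯(A ⊓ D : Subgroup G) := le_antisymm c6 (Nat.le_of_mul_le_mul_right (by
    rw [c9] at c1; nlinarith) q0)
  have eT : A ⊔ D = T := eq_of_le_of_card_ge (sup_le hA DT) (Nat.le_of_mul_le_mul_right (by nlinarith) p2)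
  obtain ⟨μ, μH, μ1, μ3, μx⟩ : ∃ μ ∈ H, μ ≠ 1 ∧ μ ^ 3 = 1 ∧ x * μ * x = μ⁻¹ := by
    by_cases hs : Group.IsSolvable H
    · obtain ⟨u, uH, u1, o, e⟩ := odd x hx xD
      have := a2_dvd hc pV o (nV uH)
      rw [c8, sol hs] at this
      exact ⟨u, uH, u1, orderOf_dvd_iff_pow_eq_one.1 this, by
        rwa [inv_eq_of_mul_eq_one_right (eA x hx)] at e⟩
    · exact (l2 hs).2.2 x xH xD (eA x hx)
  have o3 : orderOf μ = 3 := orderOf_eq_prime μ3 μ1
  have eD := EL pD (nD.norm μH) (nD.norm xH) μ3 (eA x hx) μx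
    (fun d hd => a2_free hc (by rw [o3]; decide) μ1 (a2_four hc pD hd))
    fun d hd => a2_four hc hT.isPGroup (mul_mem (hA hx) (DT hd))
  obtain rfl : V = D := le_antisymm VD fun d hd => (mV d).2
    ⟨⟨hd, mem_cent_iff.2 fun a ha => comm_of_sq eD ha hd⟩, sq d ▸ eD d hd⟩
  have cm : ∀ a ∈ A, a ∉ V → V ⊓ 𝐂[a] ≤ A := fun a ha aV =>
    (eq_of_le_of_card_ge (sub a ha) (by have := half a ha aV; nlinarith)).ge.trans inf_le_right
  rw [inf_comm A, c9] at c10
  refine ⟨q, ⟨?_, eD, eA, c8, by rw [c10, sq], c9, by rw [sup_comm, eT, ← cT, c8]; ring,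
    (hA.trans hT.le).trans nV, fun v hv => mem_normalizer_of_conj_mem fun a ha => ?_,
    fun v hv a ha e => ?_⟩, by rw [sup_comm, eT], ?_⟩
  · by_cases hs : Group.IsSolvable H
    · exact (sol hs).ge
    · obtain ⟨F, _, _, -, -, h, -⟩ := (l2 hs).1
      omega
  · by_cases aV : a ∈ V
    · rwa [cV v hv a aV, mul_inv_cancel_right]
    have w := conj_mem_of_mem_normalizer (nV (hT.le (hA ha))) (inv_mem hv)
    have a2 := inv_eq_of_mul_eq_one_right (eA a ha)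
    rw [show v * a * v⁻¹ = v * (a * v⁻¹ * a⁻¹) * a by group]
    refine mul_mem (cm a ha aV ⟨mul_mem hv w, mem_cent1_iff.2 ?_⟩) ha
    rw [cV v hv _ w, inv_eq_of_mul_eq_one_right (eD v hv), a2]
    calc a * v * a * v * a = a * (v * (a * v * a)) := by group
      _ = a * (a * v * a * v) := by
        rw [cV v hv _ (by simpa [a2, inv_eq_of_mul_eq_one_right (eD v hv)] using w)]
  · by_cases aV : a ∈ V
    exacts [.inr aV, .inl (cm a ha aV ⟨hv, mem_cent1_iff.2 e⟩)]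
  · by_cases hs : Group.IsSolvable H
    exacts [.inl ⟨sol hs, μ, μH, o3⟩, .inr (l2 hs).1]

end Cfsg.Agent.OC
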