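import Cfsg.Agent.OC.A5b
import Cfsg.Agent.OC.A2

/-! CIT-groups with a Sylow `2`-subgroup of type `L₃(q)`, `q ≥ 4`. -/

set_option autoImplicit false
set_option linter.unusedSectionVars false

namespace Cfsg.Agent.OC

open Subgroup Cfsg.Agent.MC Cfsg.Agent.FT

universe u
variable {G : Type u} [Group G] [Finite G] {V A : Subgroup G} {q : ℕ}

theorem Cf.nn (h : Cf V A q) (hc : CIT G) (hO : pCore 2 G = ⊥) (hS : Syl 2 (V ⊔ A) ⊤) :
    ¬ 𝐍(A) ≤ 𝐍(V ⊔ A) := fun e => by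
  have k1 : ∀ a ∈ A, a ∉ V → 𝐂[a] ≤ A := fun a ha a1 => by
    have p := c_two hc (h.eA a ha) fun r => a1 (r ▸ one_mem V)
    have l : A ≤ 𝐂[a] := fun b hb => mem_cent1_iff.2 (comm_of_sq h.eA hb ha)
    refine (l.eq_or_lt.resolve_right fun r => (lt_inf_normalizer (isNilpotent_of_isPGroup p) r).not_ge
      fun x hx => ?_).ge
    obtain ⟨v, hv, b, hb, rfl⟩ := h.mem (hS.le_of_le_normalizer (isPGroup_of_le inf_le_left p) le_top
      (inf_le_right.trans e) hx)
    exact mul_mem ((h.comm v hv a ha (mem_cent1_iff.1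
      ((mul_mem_cancel_right (l hb)).1 hx.1))).resolve_right a1) hb
  obtain ⟨a, ha, a1⟩ := h.symm.ex
  obtain ⟨z, hz, z1⟩ := exists_ne_one_of_ne_bot (H := V ⊓ A) (one_lt_card.1 (h.cZ ▸ h.two))
  have a2 := h.eA a ha
  have k2 : normalClosure {z} ≤ V ⊔ A := by
    refine (closure_le _).2 fun u hu => ?_
    obtain ⟨z', r, hu'⟩ := Group.mem_conjugatesOfSet_iff.1 hu
    replace hu : IsConj z u := (Set.mem_singleton_iff.1 r) ▸ hu'
    have u2 : u * u = 1 := by
      obtain ⟨g, rfl⟩ := isConj_iff.1 hu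
      rw [conj_mul, h.eV _ hz.1, mul_one, mul_inv_cancel]
    rcases Nat.even_or_odd (orderOf (u * a)) with o | o
    · have c1 : u * a * (u * a) * (u * a * (u * a)) = 1 := by
        rw [← hc _ o]; simp only [pow_succ, pow_zero, one_mul, mul_assoc]
      have c2 : u * a * (u * a) = a * u * (a * u) := by
        rw [eq_inv_of_mul_eq_one_left c1, mul_inv_rev, mul_inv_rev, inv_eq_of_mul_eq_one_left a2,
          inv_eq_of_mul_eq_one_left u2]
      by_cases c0 : u * a * (u * a) = 1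
      · refine mem_sup_right (k1 a ha a1 (mem_cent1_iff.2 ?_))
        rw [eq_inv_of_mul_eq_one_left c0, mul_inv_rev, inv_eq_of_mul_eq_one_left a2,
          inv_eq_of_mul_eq_one_left u2]
      have c3 := k1 a ha a1 (mem_cent1_iff.2 (show u * a * (u * a) * a = a * (u * a * (u * a)) by
        conv_lhs => rw [c2]
        group))
      have c4 : u ∈ 𝐂[u * a * (u * a)] := mem_cent1_iff.2 (by
        conv_lhs => rw [c2]
        group)
      by_cases c5 : u * a * (u * a) ∈ V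
      · exact (h.cz hc hS ⟨c5, c3⟩ c0).le c4
      · exact mem_sup_right (k1 _ c3 c5 c4)
    · obtain ⟨g, r⟩ := isConj_iff.1 (hu.trans (H3.isConj_of_odd u2 a2 o))
      have c1 := card_le_of_le' (k1 a ha a1)
      have c2 := h.two
      rw [← r, ← cj_cent1, card_cj, h.cz hc hS hz z1, h.cS, h.cA] at c1
      exact absurd c1 (not_le.2 (Nat.pow_lt_pow_right c2 (by decide)))
  exact z1 (mem_bot.1 (hO ▸ L.le_pCore (isPGroup_of_le k2 hS.isPGroup)
    (subset_normalClosure (Set.mem_singleton z))))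

theorem A5 (hc : CIT G) (hO : pCore 2 G = ⊥) (hi : IH2 G) {V A : Subgroup G} {q : ℕ} (h : Cf V A q)
    (hS : FT.Syl 2 (V ⊔ A) ⊤) (hL : Lc (normalizer (V : Set G)) V q) :
    q = 4 ∧ Lc (normalizer (A : Set G)) A 4 ∧ OneCl G := by
  have hS' : Syl 2 (A ⊔ V) ⊤ := sup_comm V A ▸ hS
  have q4 : 4 ≤ q := let ⟨_, _, _, _, _, r, _⟩ := hL; r
  have sA : V ⊔ A ≤ 𝐍(A) := sup_le h.nA le_normalizer
  have s1 := hS.of_le sA le_top
  have d1 : A ≤ (pCore 2 𝐍(A)).map 𝐍(A).subtype := by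
    haveI := (nrm_normalizer A).normal
    conv_lhs => rw [← map_subgroupOf_eq_of_le (le_normalizer (H := A))]
    exact map_mono (L.le_pCore (H1.isPGroup_subgroupOf (isPGroup_of_le le_sup_right hS.isPGroup) _))
  have d2 : pCore 2 𝐍(A) ≠ ⊥ := fun e => by
    obtain ⟨a, ha, a1⟩ := h.symm.ex
    rw [e, Subgroup.map_bot] at d1
    exact a1 (mem_bot.1 (d1 ha) ▸ one_mem V)
  have d3 := nrm_map_subtype (pCore 2 𝐍(A))
  obtain ⟨q', c1, -, c2⟩ := A2 hc d2 (hi _ d2) s1 (h.nn hc hO hS) le_sup_left h.eV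
    (fun B hB e => (h.elem hB e).elim card_le_of_le' fun r => h.cV ▸ h.cA ▸ card_le_of_le' r)
    fun e => h.nn hc hO hS (by
      rw [(sup_le e d1).antisymm (s1.le_of_normal ((L.pCore_isPGroup 2).map _) d3.le d3.norm)]
      exact d3.norm)
  obtain rfl : q' = q := Nat.pow_left_injective two_ne_zero (c1.cA.symm.trans h.cV)
  rw [← eq_of_le_of_card_le d1 (c1.cV.trans h.cA.symm).le] at c2
  have hL' := c2.resolve_left fun e => by omega
  obtain ⟨⟨k, -, k1, k2, k3, -⟩, -⟩ := h.side hc hS hL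
  have k0 : k ≠ 1 := fun e => by rw [e, orderOf_one] at k1; omega
  obtain ⟨w, d⟩ := h.sd hc hS hL k2 k0 k3
  obtain ⟨w', d'⟩ := h.symm.sd hc hS' hL' k2 k0 (sup_comm V A ▸ k3)
  have hy : Hy V A (zpowers k) q' w w' := ⟨h, hc, hS, k3 ▸ le_sup_right,
    fun c r => k2.of_dvd_nat (orderOf_dvd_of_mem_zpowers r),
    by rintro _ ⟨a, rfl⟩ _ ⟨b, rfl⟩; exact zpow_mul_comm k a b, d, d'⟩
  have := Nat.le_of_dvd (by decide) (orderOf_dvd_of_pow_eq_one (hy.cube (mem_zpowers k)))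
  obtain rfl : q' = 4 := by omega
  exact ⟨rfl, hL', hy.one⟩

end Cfsg.Agent.OC
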