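import Cfsg.Agent.OC.B
import Cfsg.Agent.OC.PG
import Cfsg.Agent.H3.Dihedral

/-! CIT-groups with a Sylow `2`-subgroup of type `L₃(q)`: the two parabolic subgroups. -/

set_option autoImplicit false
set_option linter.unusedSectionVars false

namespace Cfsg.Agent.OC

open Subgroup Cfsg.Agent.MC Cfsg.Agent.FT

universe u
variable {G : Type u} [Group G] [Finite G] {V A X : Subgroup G} {q : ℕ} {k s t c w z : G}

theorem c_odd (hc : CIT G) {d : ℕ} (h : d ∣ orderOf k) (h1 : Odd d) (h2 : d ≠ 1) : Odd (orderOf k) :=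
  Nat.not_even_iff_odd.1 fun e => h2 (Nat.eq_one_of_dvd_coprimes
    (Nat.Coprime.pow_right 2 (Nat.coprime_two_right.2 h1)) dvd_rfl
    (h.trans (orderOf_dvd_of_pow_eq_one (hc k e))))

theorem c_free (hc : CIT G) (hX : IsPGroup 2 X) (hk : Odd (orderOf k)) (k1 : k ≠ 1) (hs : s ∈ X)
    (e : k * s = s * k) : s = 1 := by
  obtain ⟨n, hn⟩ := (Nat.dvd_prime_pow Nat.prime_two).1
    (orderOf_dvd_of_pow_eq_one (H1.isPGroup_iff_mem.1 hX s hs).choose_spec)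
  have h1 := Commute.orderOf_mul_eq_mul_orderOf_of_coprime e
    (hn.2 ▸ Nat.Coprime.pow_right n (Nat.coprime_two_right.2 hk))
  have h2 := c_odd hc (h1 ▸ Dvd.intro _ rfl) hk (mt orderOf_eq_one_iff.1 k1)
  rw [h1, hn.2, Nat.odd_mul] at h2
  rcases n with _ | n
  · exact orderOf_eq_one_iff.1 hn.2
  · exact absurd (Nat.odd_mul.1 (pow_succ 2 n ▸ h2.2)).2 (by decide)

theorem c_p2 (h : t * t = 1) : IsPGroup 2 (zpowers t) :=
  H1.isPGroup_zpowers (k := 1) (by rw [pow_one, pow_two, h])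

theorem c_two (hc : CIT G) (h : t * t = 1) (t1 : t ≠ 1) : IsPGroup 2 𝐂[t] :=
  H1.isPGroup_iff_mem.2 fun x hx => ⟨2, by
    by_cases e : x = 1
    · rw [e, one_pow]
    · exact hc x (Nat.not_odd_iff_even.1 fun o =>
        t1 (c_free hc (c_p2 h) o e (mem_zpowers t) (mem_cent1_iff.1 hx)))⟩

theorem c_cj (hk : c ∈ 𝐍(X)) (hf : ∀ s ∈ X, c * s = s * c → s = 1) (hs : s ∈ X) :
    ∃ u ∈ X, s * c = u * c * u⁻¹ := by
  let f : X → X := fun u => ⟨u * (c * (u : G)⁻¹ * c⁻¹),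
    mul_mem u.2 (H1.conj_mem_of_mem_normalizer hk (inv_mem u.2))⟩
  obtain ⟨u, e⟩ := Finite.surjective_of_injective (f := f) (fun a b e => by
    have e1 : (a : G) * (c * (a : G)⁻¹ * c⁻¹) = b * (c * (b : G)⁻¹ * c⁻¹) := congrArg Subtype.val e
    refine Subtype.ext (inv_mul_eq_one.1 (hf _ (mul_mem (inv_mem a.2) b.2) ?_))
    calc _ = (a : G)⁻¹ * (a * (c * (a : G)⁻¹ * c⁻¹)) * c * b := by group
      _ = _ := by rw [e1]; group) ⟨s, hs⟩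
  exact ⟨u, u.2, by rw [← show (u : G) * (c * (u : G)⁻¹ * c⁻¹) = s from congrArg Subtype.val e]; group⟩

theorem Cf.sV (h : Cf V A q) : V ⊔ A ≤ 𝐍(V) := sup_le le_normalizer h.nV

theorem Cf.zc (h : Cf V A q) (hz : z ∈ V ⊓ A) : V ⊔ A ≤ 𝐂[z] :=
  sup_le (fun _ hv => mem_cent1_iff.2 (comm_of_sq h.eV hv hz.1))
    fun _ hv => mem_cent1_iff.2 (comm_of_sq h.eA hv hz.2)

theorem Cf.cz (h : Cf V A q) (hc : CIT G) (hS : Syl 2 (V ⊔ A) ⊤) (hz : z ∈ V ⊓ A) (z1 : z ≠ 1) :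
    𝐂[z] = V ⊔ A := hS.eq_of_le (c_two hc (h.eV z hz.1) z1) (h.zc hz) le_top

theorem Cf.nS (h : Cf V A q) (hc : CIT G) (hS : Syl 2 (V ⊔ A) ⊤) : 𝐍(V ⊔ A) ≤ 𝐍(V) := fun y hy => by
  have big : ∀ B : Subgroup G, B ≤ V ⊔ A → (∀ x ∈ B, x * x = 1) → Nat.card B = q ^ 2 →
      cj y B = V ∨ cj y B = A := fun B hB e c => h.big
    ((cj_mono y hB).trans (cj_eq_iff_mem_normalizer.2 hy).le)
    (by rintro _ ⟨b, hb, rfl⟩; rw [← map_mul, e b hb, map_one]) (by rw [card_cj, c])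
  rcases big V le_sup_left h.eV h.cV with e | e
  · exact cj_eq_iff_mem_normalizer.1 e
  have e' : cj y A = V := (big A le_sup_right h.eA h.cA).resolve_right fun e' =>
    h.ne (H1.cj_injective y (e.trans e'.symm))
  rcases Nat.even_or_odd (orderOf y) with o | ⟨n, o⟩
  · exact h.sV (zpowers_le.1 (hS.le_of_le_normalizer (H1.isPGroup_zpowers (k := 2) (hc y o)) le_top
      (zpowers_le.2 hy)))
  · have : y * y ∈ 𝐍(V) := cj_eq_iff_mem_normalizer.1 (by rw [cj_mul, e, e'])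
    rw [show y = (y * y) ^ (n + 1) by
      rw [← pow_two, ← pow_mul, mul_add, mul_one, ← one_add_one_eq_two, ← add_assoc, one_add_one_eq_two,
        ← o, pow_succ, pow_orderOf_eq_one, one_mul]]
    exact pow_mem this _

/-- the data coming from `N(V) / V ≅ L₂(q)` -/
theorem Cf.side (h : Cf V A q) (hc : CIT G) (hS : Syl 2 (V ⊔ A) ⊤) (hL : Lc 𝐍(V) V q) :
    (∃ k w : G, orderOf k + 1 = q ∧ Odd (orderOf k) ∧ 𝐍(V ⊔ A) = V ⊔ A ⊔ zpowers k ∧ w ∈ 𝐍(V) ∧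
      w * w = 1 ∧ w * k * w⁻¹ = k⁻¹ ∧ w ∉ 𝐍(V ⊔ A) ∧ ∀ s ∈ V ⊔ A, s ∉ V → ∀ s' ∈ V ⊔ A, s' ∉ V →
        ∃ c ∈ zpowers k, (c * s * c⁻¹)⁻¹ * s' ∈ V) ∧
    ∀ w ∈ 𝐍(V), w * w = 1 → w ∉ 𝐍(V ⊔ A) → ∃ s ∈ A, (s * w) ^ 3 = 1 := by
  obtain ⟨F, _, _, φ, _, q4, hq, sj, ker⟩ := hL
  have s1 := hS.of_le h.sV le_top
  let Q := s1.toSylow.mapSurjective sj
  have cm : comap φ Q = (V ⊔ A).subgroupOf 𝐍(V) := by
    show comap φ (map φ ((V ⊔ A).subgroupOf 𝐍(V))) = _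
    rw [comap_map_eq, sup_eq_left]
    exact fun g hg => mem_sup_left ((ker g).1 hg)
  have mQ : ∀ g : 𝐍(V), φ g ∈ (Q : Subgroup (L2 F)) ↔ (g : G) ∈ V ⊔ A := fun g =>
    (SetLike.ext_iff.1 cm g :)
  have mN : ∀ g : 𝐍(V), φ g ∈ 𝐍((Q : Subgroup (L2 F))) ↔ (g : G) ∈ 𝐍(V ⊔ A) := fun g => by
    rw [← mem_subgroupOf (K := 𝐍(V)), subgroupOf_normalizer_eq h.sV]
    exact ⟨fun e => cm ▸ le_normalizer_comap φ (mem_comap.2 e),
      fun e => le_normalizer_map φ (mem_map_of_mem φ e)⟩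
  have pV : IsPGroup 2 V := isPGroup_of_le le_sup_left hS.isPGroup
  have od : ∀ (g : 𝐍(V)) (n : ℕ), orderOf (φ g) = n → Odd n → n ≠ 1 →
      Odd (orderOf (g : G)) ∧ (g : G) ^ n = 1 := fun g n e o n1 => by
    have o1 := c_odd hc (k := (g : G)) (by rw [Subgroup.orderOf_coe, ← e]; exact orderOf_map_dvd φ g) o n1
    refine ⟨o1, c_free hc pV o1 (fun e1 => n1 ?_) ((ker (g ^ n)).1 ?_) (by group)⟩
    · rw [← e, show g = 1 from Subtype.ext e1, map_one, orderOf_one]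
    · rw [map_pow, ← e, pow_orderOf_eq_one]
  refine ⟨?_, fun w w1 w2 w3 => ?_⟩
  · obtain ⟨k, w, k1, k2, k3, k4, w1, w2, w3⟩ := F9 (hq ▸ q4) Q
    obtain ⟨k, rfl⟩ := sj k
    obtain ⟨w, rfl⟩ := sj w
    have ev : Even (Fintype.card F) := by
      obtain ⟨n, -, e⟩ := FiniteField.card F 2
      rw [e]; exact (Nat.even_pow' n.ne_zero).2 even_two
    obtain ⟨o1, o2⟩ := od k _ rfl (by rw [← k1, Nat.even_add_one, Nat.not_even_iff_odd] at ev; exact ev)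
      (by omega)
    have o3 : orderOf (k : G) = orderOf (φ k) := Nat.dvd_antisymm (orderOf_dvd_of_pow_eq_one o2)
      (by rw [Subgroup.orderOf_coe]; exact orderOf_map_dvd φ k)
    have k0 : (k : G) ≠ 1 := fun e => by rw [e, orderOf_one] at o3; omega
    obtain ⟨u, hu, e⟩ := c_cj (c := (k : G)⁻¹) (inv_mem k.2) (fun s hs e => c_free hc pV
      (by rwa [orderOf_inv]) (inv_ne_one.2 k0) hs e) ((ker (w * k * w⁻¹ * k)).1 (by
        rw [map_mul, map_mul, map_mul, map_inv, w2, inv_mul_cancel]))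
    have e1 : u⁻¹ * w * k * (u⁻¹ * w)⁻¹ = (k : G)⁻¹ :=
      calc _ = u⁻¹ * ((w : G) * k * (w : G)⁻¹ * k * (k : G)⁻¹) * u := by group
        _ = _ := by rw [show (w : G) * k * (w : G)⁻¹ * k * (k : G)⁻¹ = _ from e]; group
    have u1 : φ ⟨u, le_normalizer hu⟩ = 1 := (ker _).2 hu
    refine ⟨k, u⁻¹ * w, by omega, o1, le_antisymm (fun g hg => ?_)
      (sup_le le_normalizer (zpowers_le.2 ((mN k).1 k2))), mul_mem (inv_mem (le_normalizer hu)) w.2,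
      c_free hc pV o1 k0 ((ker ((⟨u, le_normalizer hu⟩⁻¹ * w) * (⟨u, le_normalizer hu⟩⁻¹ * w))).1 (by
        simp only [map_mul, map_inv, u1, inv_one, one_mul, w1])) ?_, e1,
      fun e => w3 ((mN w).2 ((mul_mem_cancel_left (inv_mem (le_normalizer (mem_sup_left hu)))).1 e)),
      fun s hs s0 s' hs' s0' => ?_⟩
    · have := (mN ⟨g, h.nS hc hS hg⟩).2 hg
      rw [k3, mem_sup_of_le_normalizer' (zpowers_le.2 k2)] at this
      obtain ⟨a, ha, _, ⟨n, rfl⟩, e⟩ := this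
      have : g * ((k : G) ^ n)⁻¹ ∈ V ⊔ A := (mQ (⟨g, h.nS hc hS hg⟩ * (k ^ n)⁻¹)).1 (by
        rw [map_mul, ← e, map_inv, map_zpow, mul_inv_cancel_right]; exact ha)
      exact (mul_mem_cancel_right (inv_mem (mem_sup_right (zpow_mem_zpowers _ n)))).1 (mem_sup_left this)
    · generalize u⁻¹ * (w : G) = v at e1
      have e2 : v * (k : G)⁻¹ * v⁻¹ = k := 
        calc _ = (v * k * v⁻¹)⁻¹ := by group
          _ = _ := by rw [e1, inv_inv]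
      calc _ = v * (k : G)⁻¹ * v⁻¹ * (v * v) := by rw [e2]
        _ = v * (v * k * v⁻¹) * v := by rw [e1]; group
        _ = _ := by group
    · obtain ⟨_, ⟨n, rfl⟩, e⟩ := k4 _ ((mQ ⟨s, h.sV hs⟩).2 hs) _ ((mQ ⟨s', h.sV hs'⟩).2 hs')
        (mt (ker _).1 s0) (mt (ker _).1 s0')
      exact ⟨_, zpow_mem_zpowers _ n, (ker ((k ^ n * ⟨s, h.sV hs⟩ * (k ^ n)⁻¹)⁻¹ * ⟨s', h.sV hs'⟩)).1 (by
        rw [map_mul, map_inv, map_mul, map_mul, map_inv, map_zpow, inv_mul_eq_one]; exact e)⟩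
  · obtain ⟨s, hs, -, s3⟩ := F7 Q (w := φ ⟨w, w1⟩) (by
      rw [← map_mul, show (⟨w, w1⟩ * ⟨w, w1⟩ : 𝐍(V)) = 1 from Subtype.ext w2, map_one])
      (mt (mN _).1 w3)
    obtain ⟨s, rfl⟩ := sj s
    obtain ⟨v, hv, a, ha, e⟩ := h.mem ((mQ s).1 hs)
    refine ⟨a, ha, (od (⟨a, h.nV ha⟩ * ⟨w, w1⟩) 3 ?_ (by decide) (by decide)).2⟩
    rw [← s3, show s = ⟨v, le_normalizer hv⟩ * ⟨a, h.nV ha⟩ from Subtype.ext e, map_mul, map_mul,
      (ker ⟨v, le_normalizer hv⟩).2 hv, one_mul]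

end Cfsg.Agent.OC
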