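import Cfsg.Agent.OC.A5a

/-! CIT-groups with a Sylow `2`-subgroup of type `L₃(q)`: `q = 4`. -/

set_option autoImplicit false
set_option linter.unusedSectionVars false

namespace Cfsg.Agent.OC

open Subgroup Cfsg.Agent.MC Cfsg.Agent.FT

universe u
variable {G : Type u} [Group G] [Finite G] {V A K : Subgroup G} {q : ℕ} {k s t c j w w' z : G}

/-- a Weyl element of `N(V)` -/
structure Sd (V A K : Subgroup G) (w : G) : Prop where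
  wN : w ∈ 𝐍(V)
  inv : ∀ c ∈ K, w * c * w⁻¹ = c⁻¹
  wS : w ∉ 𝐍(V ⊔ A)
  tr : ∀ s ∈ V ⊔ A, s ∉ V → ∀ s' ∈ V ⊔ A, s' ∉ V → ∃ c ∈ K, (c * s * c⁻¹)⁻¹ * s' ∈ V
  f7 : ∃ s ∈ A, ∀ z ∈ V ⊓ A, s * (w * z * w⁻¹) * s⁻¹ = z * (w * z * w⁻¹)

theorem Cf.sq (h : Cf V A q) (hs : s ∈ V ⊔ A) : s * s ∈ V := by
  obtain ⟨v, hv, a, ha, rfl⟩ := h.mem hs
  rw [show v * a * (v * a) = v * (a * v * a⁻¹) * (a * a) by group, h.eA a ha, mul_one]
  exact mul_mem hv (H1.conj_mem_of_mem_normalizer (h.nV ha) hv)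

theorem Cf.sd (h : Cf V A q) (hc : CIT G) (hS : Syl 2 (V ⊔ A) ⊤) (hL : Lc 𝐍(V) V q)
    (o : Odd (orderOf k)) (k1 : k ≠ 1) (hk : 𝐍(V ⊔ A) = V ⊔ A ⊔ zpowers k) :
    ∃ w, Sd V A (zpowers k) w := by
  obtain ⟨⟨k0, w, -, o0, e0, w1, w2, w3, w4, tr⟩, f7⟩ := h.side hc hS hL
  have n0 : zpowers k0 ≤ 𝐍(V ⊔ A) := e0 ▸ le_sup_right
  have n1 : zpowers k ≤ 𝐍(V ⊔ A) := hk ▸ le_sup_right
  obtain ⟨x, hx, c, c1, e⟩ := (mem_sup_of_le_normalizer' n0).1 (e0.le (n1 (mem_zpowers k)))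
  have c0 : c ≠ 1 := fun e1 => k1 (c_free hc hS.isPGroup o k1 (by rwa [← e, e1, mul_one]) rfl)
  obtain ⟨u, hu, e1⟩ := c_cj (n0 c1) (fun s => c_free hc hS.isPGroup
    (o0.of_dvd_nat (orderOf_dvd_of_mem_zpowers c1)) c0) hx
  rw [e] at e1
  have a1 : u * w * u⁻¹ ∈ 𝐍(V) := mul_mem (mul_mem (h.sV hu) w1) (inv_mem (h.sV hu))
  have a2 : u * w * u⁻¹ * (u * w * u⁻¹) = 1 := by rw [conj_mul, w2, mul_one, mul_inv_cancel]
  have a3 : u * w * u⁻¹ ∉ 𝐍(V ⊔ A) := fun e => w4 ((mul_mem_cancel_left (le_normalizer hu)).1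
    ((mul_mem_cancel_right (inv_mem (le_normalizer hu))).1 e))
  refine ⟨u * w * u⁻¹, a1, ?_, a3, fun s hs s0 s' hs' s0' => ?_, ?_⟩
  · rintro _ ⟨n, rfl⟩
    obtain ⟨m, rfl⟩ := c1
    have : w * k0 ^ m * w⁻¹ = (k0 ^ m)⁻¹ := by rw [← conj_zpow, w3, inv_zpow]
    show _ * k ^ n * _ = (k ^ n)⁻¹
    rw [← conj_zpow, ← inv_zpow, e1]
    congr 1
    calc _ = u * (w * k0 ^ m * w⁻¹) * u⁻¹ := by group
      _ = _ := by rw [this]; group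
  · obtain ⟨c, c1, e⟩ := tr s hs s0 s' hs' s0'
    obtain ⟨x, hx, c, c2, rfl⟩ := (mem_sup_of_le_normalizer' n1).1 (hk.le (n0 c1))
    have t1 := H1.conj_mem_of_mem_normalizer (n1 c2) hs
    refine ⟨c, c2, ?_⟩
    rw [show x * c * s * (x * c)⁻¹ = x * (c * s * c⁻¹) * x⁻¹ by group] at e
    generalize c * s * c⁻¹ = t at t1 e
    rw [show t⁻¹ * s' = t⁻¹ * x * (t⁻¹ * x) * (x⁻¹ * (t * t) * x) * (x⁻¹ * x⁻¹) *
      ((x * t * x⁻¹)⁻¹ * s') by group]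
    exact mul_mem (mul_mem (mul_mem (h.sq (mul_mem (inv_mem t1) hx))
      (H1.conj_mem_of_mem_normalizer' (h.sV hx) (h.sq t1))) (h.sq (inv_mem hx))) e
  · obtain ⟨s, hs, s3⟩ := f7 _ a1 a2 a3
    generalize u * w * u⁻¹ = w at a1 a2 a3 s3
    refine ⟨s, hs, fun z hz => ?_⟩
    have m1 : s * w ∈ 𝐍(V) := mul_mem (h.nV hs) a1
    have m2 : s * w * (s * w) = (s * w)⁻¹ := eq_inv_of_mul_eq_one_left (by rw [← s3, pow_succ, pow_two])
    have m3 : (z * (s * w)) ^ 3 = z * (s * w * z * (s * w)⁻¹) * ((s * w)⁻¹ * z * (s * w)) := by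
      conv_rhs => enter [2, 1, 1]; rw [← m2]
      simp only [pow_succ]; group
    have m4 : (z * (s * w)) ^ 3 ∈ V := m3 ▸ mul_mem (mul_mem hz.1
      (H1.conj_mem_of_mem_normalizer m1 hz.1)) (H1.conj_mem_of_mem_normalizer' m1 hz.1)
    have m5 := c_free hc (isPGroup_of_le le_sup_left hS.isPGroup)
      ((by decide : Odd 3).of_dvd_nat (orderOf_dvd_of_pow_eq_one s3))
      (fun e => a3 (by rw [eq_inv_of_mul_eq_one_right e]; exact inv_mem (le_normalizer (mem_sup_right hs))))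
      m4 (mul_left_cancel (a := z) (by
        rw [← mul_assoc z _ (s * w), comm_of_sq h.eV hz.1 m4, ← mul_assoc, mul_assoc _ z, ← pow_succ,
          ← pow_succ']))
    have m6 : (s * w)⁻¹ * z * (s * w) = (w * z * w⁻¹)⁻¹ :=
      calc _ = w⁻¹ * (s⁻¹ * (z * s)) * w := by group
        _ = _ := by
          rw [comm_of_sq h.eA hz.2 hs, inv_mul_cancel_left, mul_inv_rev, mul_inv_rev, inv_inv,
            inv_eq_of_mul_eq_one_left a2, inv_eq_of_mul_eq_one_left (h.eV z hz.1), mul_assoc]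
    rw [m3, m6, mul_inv_eq_one, ← eq_inv_mul_iff_mul_eq, inv_eq_of_mul_eq_one_left (h.eV z hz.1)] at m5
    rw [← m5]; group

theorem c_sqrt (o : Odd (orderOf c)) : ∃ j ∈ zpowers c, j * j = c := by
  obtain ⟨n, e⟩ := o
  exact ⟨c ^ (n + 1), npow_mem_zpowers c _, by
    rw [← pow_add, show n + 1 + (n + 1) = 2 * n + 1 + 1 by ring, ← e, pow_succ, pow_orderOf_eq_one,
      one_mul]⟩

/-- the standing hypotheses -/
structure Hy (V A K : Subgroup G) (q : ℕ) (w w' : G) : Prop where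
  cf : Cf V A q
  hc : CIT G
  hS : Syl 2 (V ⊔ A) ⊤
  nK : K ≤ 𝐍(V ⊔ A)
  oK : ∀ c ∈ K, Odd (orderOf c)
  cK : ∀ c ∈ K, ∀ d ∈ K, c * d = d * c
  d : Sd V A K w
  d' : Sd A V K w'

namespace Hy

theorem symm (h : Hy V A K q w w') : Hy A V K q w' w :=
  ⟨h.cf.symm, h.hc, sup_comm V A ▸ h.hS, sup_comm V A ▸ h.nK, h.oK, h.cK, h.d', h.d⟩

theorem nV (h : Hy V A K q w w') : K ≤ 𝐍(V) := h.nK.trans (h.cf.nS h.hc h.hS)

theorem kz (h : Hy V A K q w w') (hc : c ∈ K) (hz : z ∈ V ⊓ A) : c * z * c⁻¹ ∈ V ⊓ A :=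
  H1.conj_mem_of_mem_normalizer (le_normalizer_inf h.nV h.symm.nV hc) hz

theorem wz (h : Hy V A K q w w') (hz : z ∈ V) : w * z * w⁻¹ ∈ V :=
  H1.conj_mem_of_mem_normalizer h.d.wN hz

theorem free (h : Hy V A K q w w') (hc : c ∈ K) (hz : z ∈ V) (z1 : z ≠ 1) (e : c * z * c⁻¹ = z) :
    c = 1 := by_contra fun c1 => z1 (c_free h.hc h.hS.isPGroup (h.oK c hc) c1 (mem_sup_left hz)
      (mul_inv_eq_iff_eq_mul.1 e))

theorem sq1 (h : Hy V A K q w w') (hc : c ∈ K) (e : c * c = 1) : c = 1 :=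
  by_contra fun c1 => c1 (c_free h.hc (c_p2 e) (h.oK c hc) c1 (mem_zpowers c) rfl)

theorem dis (h : Hy V A K q w w') (hz : z ∈ V ⊓ A) (e : w * z * w⁻¹ ∈ A) : z = 1 :=
  by_contra fun z1 => h.d.wS (cj_eq_iff_mem_normalizer.1 (by
    rw [← h.cf.cz h.hc h.hS hz z1, cj_cent1, h.cf.cz h.hc h.hS hz z1,
      h.cf.cz h.hc h.hS ⟨h.wz hz.1, e⟩ (conj_ne_one z1)]))

theorem dec (h : Hy V A K q w w') (hs : s ∈ V) :
    ∃ y ∈ V ⊓ A, ∃ z ∈ V ⊓ A, y * (w * z * w⁻¹) = s := by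
  have h1 : cj w (V ⊓ A) ≤ V := cj_le_iff.2 fun z hz => h.wz hz.1
  have h2 : cj w (V ⊓ A) ≤ 𝐍(V ⊓ A) := h1.trans (le_normalizer_inf le_normalizer h.cf.nA)
  have h3 := eq_of_le_of_card_le (sup_le inf_le_left h1) (by
    rw [card_sup_of_inf_eq_bot h2 (eq_bot_iff.2 (by
      rintro _ ⟨h4, z, hz, rfl⟩
      rw [h.dis hz h4.2, map_one]; exact one_mem _)), card_cj, h.cf.cZ, h.cf.cV, pow_two])
  obtain ⟨y, hy, _, ⟨z, hz, rfl⟩, e⟩ := (mem_sup_of_le_normalizer' h2).1 (h3.ge hs)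
  exact ⟨y, hy, z, hz, e⟩

theorem cw (h : Hy V A K q w w') (hc : c ∈ K) (z : G) :
    c * (w * z * w⁻¹) * c⁻¹ = w * (c⁻¹ * z * c) * w⁻¹ :=
  calc _ = (w * c * w⁻¹)⁻¹ * (w * z * w⁻¹) * (w * c * w⁻¹) := by rw [h.d.inv c hc, inv_inv]
    _ = _ := by group

theorem trZ (h : Hy V A K q w w') (hz : z ∈ V ⊓ A) (z1 : z ≠ 1) (ht : t ∈ V ⊓ A) (t1 : t ≠ 1) :
    ∃ c ∈ K, c * z * c⁻¹ = t := by
  obtain ⟨c, hc, e⟩ := h.d'.tr _ (mem_sup_right (h.wz hz.1)) (mt (h.dis hz) z1) _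
    (mem_sup_right (h.wz ht.1)) (mt (h.dis ht) t1)
  refine ⟨c⁻¹, inv_mem hc, inv_mul_eq_one.1 (h.dis (mul_mem (inv_mem (h.kz (inv_mem hc) hz)) ht) ?_)⟩
  rw [h.cw hc] at e
  convert e using 1
  group

theorem beta (h : Hy V A K q w w') (hs : ∀ z ∈ V ⊓ A, s * (w * z * w⁻¹) * s⁻¹ = z * (w * z * w⁻¹))
    (hj : j ∈ K) (hz : z ∈ V ⊓ A) : j * s * j⁻¹ * (w * z * w⁻¹) * (j * s * j⁻¹)⁻¹ =
      j * j * z * (j * j)⁻¹ * (w * z * w⁻¹) := by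
  have e := h.cw (inv_mem hj) z
  rw [inv_inv] at e
  calc _ = j * (s * (j⁻¹ * (w * z * w⁻¹) * j) * s⁻¹) * j⁻¹ := by group
    _ = j * (j * z * j⁻¹ * (j⁻¹ * (w * z * w⁻¹) * j)) * j⁻¹ := by rw [e, hs _ (h.kz hj hz)]
    _ = _ := by group

theorem cjV (h : Hy V A K q w w') (ht : t ∈ V) (t1 : t ≠ 1) : ∃ z ∈ V ⊓ A, z ≠ 1 ∧ IsConj z t := by
  obtain ⟨y, hy, z, hz, rfl⟩ := h.dec ht
  by_cases z1 : z = 1
  · subst z1
    exact ⟨y, hy, by simpa using t1, by rw [mul_one, mul_inv_cancel, mul_one]⟩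
  refine ⟨z, hz, z1, (isConj_iff.2 ⟨w, rfl⟩).trans ?_⟩
  by_cases y1 : y = 1
  · rw [y1, one_mul]
  obtain ⟨c, hc, rfl⟩ := h.trZ hz z1 hy y1
  obtain ⟨j, hj, rfl⟩ := c_sqrt (h.oK c hc)
  obtain ⟨s, -, hs⟩ := h.d.f7
  exact isConj_iff.2 ⟨_, h.beta hs (zpowers_le.2 hc hj) hz⟩

theorem one (h : Hy V A K q w w') : OneCl G := by
  have k : ∀ t : G, orderOf t = 2 → ∃ z ∈ V ⊓ A, z ≠ 1 ∧ IsConj z t := fun t ht => by
    have t2 : t * t = 1 := by rw [← pow_two, ← ht, pow_orderOf_eq_one]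
    have t1 : t ≠ 1 := fun e => by rw [e, orderOf_one] at ht; omega
    obtain ⟨g, -, e⟩ := h.hS.exists_cj_le (c_p2 t2) le_top
    have c : IsConj (g * t * g⁻¹) t := (isConj_iff.2 ⟨g, rfl⟩).symm
    rcases h.cf.invol (e (conj_mem_cj (mem_zpowers t))) (by rw [conj_mul, t2, mul_one, mul_inv_cancel])
      with r | r
    · obtain ⟨z, z0, z1, z2⟩ := h.cjV r (conj_ne_one t1)
      exact ⟨z, z0, z1, z2.trans c⟩
    · obtain ⟨z, z0, z1, z2⟩ := h.symm.cjV r (conj_ne_one t1)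
      exact ⟨z, z0.symm, z1, z2.trans c⟩
  intro t u ht hu
  obtain ⟨z, z0, z1, z2⟩ := k t ht
  obtain ⟨y, y0, y1, y2⟩ := k u hu
  obtain ⟨c, -, e⟩ := h.trZ z0 z1 y0 y1
  exact z2.symm.trans ((isConj_iff.2 ⟨c, e⟩).trans y2)

theorem cube (h : Hy V A K q w w') (hk : k ∈ K) : k ^ 3 = 1 := by
  obtain ⟨s, s1, s2⟩ := h.d.f7
  obtain ⟨y, hy, e, he, rfl⟩ := h.symm.dec s1
  have cV := fun {a b} => comm_of_sq h.cf.eV (a := a) (b := b)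
  have hs : ∀ z ∈ V ⊓ A, w' * e * w'⁻¹ * (w * z * w⁻¹) * (w' * e * w'⁻¹)⁻¹ = z * (w * z * w⁻¹) :=
    fun z hz => by
      have m := mul_mem hz.1 (h.wz hz.1)
      calc _ = y⁻¹ * (y * (w' * e * w'⁻¹) * (w * z * w⁻¹) * (y * (w' * e * w'⁻¹))⁻¹) * y := by group
        _ = _ := by rw [s2 z hz, mul_assoc, cV m hy.2, inv_mul_cancel_left]
  obtain ⟨z0, a0, a1⟩ := exists_ne_one_of_ne_bot (H := V ⊓ A) (one_lt_card.1 (h.cf.cZ ▸ h.cf.two))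
  have e1 : e ≠ 1 := fun r => a1 (by simpa [r] using hs z0 a0)
  have he' : e ∈ V ⊓ A := he.symm
  have sA := h.symm.wz he.1
  have key : ∀ j ∈ K, j ≠ 1 → ∃ i ∈ K, (∀ z ∈ V ⊓ A, i * i * z * (i * i)⁻¹ = j * j * z * (j * j)⁻¹ * z) ∧
      i⁻¹ * e * i = e * (j⁻¹ * e * j) := fun j hj j1 => by
    have b1 := H1.conj_mem_of_mem_normalizer (h.symm.nV hj) sA
    have b2 : ∀ z ∈ V ⊓ A, w' * e * w'⁻¹ * (j * (w' * e * w'⁻¹) * j⁻¹) * (w * z * w⁻¹) *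
        (w' * e * w'⁻¹ * (j * (w' * e * w'⁻¹) * j⁻¹))⁻¹ = j * j * z * (j * j)⁻¹ * z * (w * z * w⁻¹) :=
      fun z hz => by
        have c1 := comm_of_sq h.cf.eA sA (h.kz (mul_mem hj hj) hz).2
        have c2 := h.beta hs hj hz
        have c3 := hs z hz
        generalize w' * e * w'⁻¹ = s at c1 c2 c3 ⊢
        calc _ = s * (j * s * j⁻¹ * (w * z * w⁻¹) * (j * s * j⁻¹)⁻¹) * s⁻¹ := by group
          _ = _ := by rw [c2, ← mul_assoc s, c1, mul_assoc _ s, mul_assoc _ _ s⁻¹, c3, ← mul_assoc]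
    obtain ⟨i, hi, r⟩ := h.d.tr _ (mem_sup_right sA) (mt (h.symm.dis he) e1) _
      (mem_sup_right (mul_mem sA b1)) fun r => j1 (h.sq1 hj (h.free (mul_mem hj hj) a0.1 a1 (by
        have := b2 z0 a0
        rw [cV r (h.wz a0.1), mul_inv_cancel_right, eq_comm, mul_eq_right, mul_eq_one_iff_eq_inv,
          inv_eq_of_mul_eq_one_left (h.cf.eV _ a0.1)] at this
        exact this)))
    have c1 := h.kz (inv_mem hi) he'
    have c2 := h.kz (inv_mem hj) he'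
    rw [inv_inv] at c1 c2
    have r1 := inv_mul_eq_one.1 (h.symm.dis (mul_mem (inv_mem c1) (mul_mem he' c2)).symm (by
      rw [h.symm.cw hi, h.symm.cw hj] at r
      convert r using 1
      group))
    refine ⟨i, hi, fun z hz => mul_right_cancel (b := w * z * w⁻¹) ?_, r1⟩
    rw [← b2 z hz, ← h.beta hs hi hz, h.symm.cw hi, h.symm.cw hj, r1, conj_mul]
  by_cases k1 : k = 1
  · rw [k1, one_pow]
  obtain ⟨j, hj, rfl⟩ := c_sqrt (h.oK k hk)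
  replace hj := zpowers_le.2 hk hj
  obtain ⟨i, hi, r1, -⟩ := key j hj fun r => k1 (by rw [r, mul_one])
  obtain ⟨l, hl, r2, r3⟩ := key _ hk k1
  replace hi := mul_mem hi hi
  generalize j * j = k at *
  generalize i * i = m at hi r1
  have c1 := h.kz hk he'
  have c2 := h.kz (inv_mem hk) he'
  rw [inv_inv] at c2
  have r4 : m * m * e * (m * m)⁻¹ = l * l * e * (l * l)⁻¹ :=
    calc _ = m * (m * e * m⁻¹) * m⁻¹ := by group
      _ = m * (k * e * k⁻¹) * m⁻¹ * (m * e * m⁻¹) := by rw [conj_mul, r1 e he']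
      _ = k * k * e * (k * k)⁻¹ * (k * e * k⁻¹ * (k * e * k⁻¹)) * e := by
        rw [r1 e he', r1 _ c1]; group
      _ = _ := by rw [h.cf.eV _ c1.1, mul_one, r2 e he']
  obtain rfl : l = m := by
    refine inv_mul_eq_one.1 (h.sq1 (mul_mem (inv_mem hl) hi) ?_)
    have : l⁻¹ * m * (l⁻¹ * m) = (l * l)⁻¹ * (m * m) := by
      rw [mul_assoc, ← mul_assoc m, h.cK m hi _ (inv_mem hl)]; group
    rw [this]
    refine h.free (mul_mem (inv_mem (mul_mem hl hl)) (mul_mem hi hi)) he'.1 e1 ?_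
    calc _ = (l * l)⁻¹ * (m * m * e * (m * m)⁻¹) * (l * l) := by
          rw [mul_inv_rev (l * l)⁻¹, inv_inv]; simp only [mul_assoc]
      _ = _ := by rw [r4]; group
  have r5 : k * e * k⁻¹ * e * (e * (k⁻¹ * e * k)) = e :=
    calc _ = l * e * l⁻¹ * (l * (k⁻¹ * e * k) * l⁻¹) := by rw [r1 e he', r1 _ c2]; group
      _ = _ := by rw [conj_mul, ← r3]; group
  rw [mul_assoc, ← mul_assoc e, h.cf.eV e he'.1, one_mul] at r5
  refine h.free (pow_mem hk 3) he'.1 e1 ?_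
  have r6 : k * (k * e * k⁻¹) * k⁻¹ * e = k * e * k⁻¹ := by
    conv_rhs => rw [← r5]
    group
  have r7 : k * (k * e * k⁻¹) * k⁻¹ = k⁻¹ * e * k := by
    rw [eq_mul_inv_of_mul_eq r6, inv_eq_of_mul_eq_one_left (h.cf.eV e he'.1)]
    conv_lhs => enter [2]; rw [← r5]
    rw [← mul_assoc, h.cf.eV _ c1.1, one_mul]
  calc _ = k * (k * (k * e * k⁻¹) * k⁻¹) * k⁻¹ := by
        simp only [pow_succ, pow_zero, one_mul, mul_inv_rev, mul_assoc]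
    _ = _ := by rw [r7]; group

end Hy

end Cfsg.Agent.OC
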