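import Cfsg.Agent.OC.Def

/-! Basic facts on element orders. -/

set_option autoImplicit false
set_option linter.unusedSectionVars false

namespace Cfsg.Agent.OC

open Subgroup Cfsg.Agent.MC
open scoped Pointwise

universe u
variable {G : Type u} [Group G] [Finite G]

theorem ex_ord {a : G} {m : ℕ} (h : m ∣ orderOf a) : ∃ x : G, orderOf x = m := by
  obtain ⟨k, hk⟩ := h
  have h0 := orderOf_pos a
  have hk0 : k ≠ 0 := by rintro rfl; omega
  refine ⟨a ^ k, ?_⟩
  rw [orderOf_pow' a hk0, hk, Nat.gcd_mul_left_left, Nat.mul_div_cancel _ (Nat.pos_of_ne_zero hk0)]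

theorem TT_two (h : TT G) {p m n : ℕ} (hp : p.Prime) {a b : G} (ha : m ∣ orderOf a) (hb : n ∣ orderOf b)
    (h1 : p ∣ m) (h2 : p ∣ n) (h3 : m ≠ p) (h4 : n ≠ p) : m = n := by
  by_contra e
  obtain ⟨x, hx⟩ := ex_ord ha
  obtain ⟨y, hy⟩ := ex_ord hb
  obtain ⟨z, hz⟩ := ex_ord (h1.trans ha)
  exact h p hp x y z (by rwa [hx, hy]) (by rwa [hy, hz]) (by rwa [hx, hz])
    ⟨by rwa [hx], by rwa [hy], by rw [hz]⟩

theorem TT_of {H : Type*} [Group H] (h : TT G) (e : ∀ x : H, ∃ y : G, orderOf y = orderOf x) : TT H := by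
  intro p hp a b c h1 h2 h3
  obtain ⟨x, hx⟩ := e a
  obtain ⟨y, hy⟩ := e b
  obtain ⟨z, hz⟩ := e c
  rw [← hx, ← hy] at h1
  rw [← hy, ← hz] at h2
  rw [← hx, ← hz] at h3
  rw [← hx, ← hy, ← hz]
  exact h p hp x y z h1 h2 h3

theorem TT_sub (h : TT G) (H : Subgroup G) : TT H := TT_of h fun x => ⟨x, orderOf_coe x⟩

theorem TT_quo (h : TT G) (N : Subgroup G) [N.Normal] : TT (G ⧸ N) := TT_of h fun x => by
  obtain ⟨y, rfl⟩ := QuotientGroup.mk'_surjective N x
  exact ex_ord (orderOf_map_dvd _ y)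

theorem TT_len (h : TT G) (x : G) : (orderOf x).primeFactorsList.length ≤ 2 := by
  by_contra! e
  have h0 := (orderOf_pos x).ne'
  have h1 := Nat.prod_primeFactorsList h0
  have h2 := fun p => Nat.prime_of_mem_primeFactorsList (n := orderOf x) (p := p)
  generalize (orderOf x).primeFactorsList = l at e h1 h2
  match l, e with
  | p :: q :: r :: l, _ =>
    have hp := h2 p (by simp)
    have hq := (h2 q (by simp)).one_lt
    have hr := (h2 r (by simp)).one_lt
    have hp1 := hp.pos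
    simp only [List.prod_cons] at h1
    have := TT_two h hp (m := p * q) (n := p * q * r) (a := x) (b := x) ⟨r * l.prod, by rw [← h1]; ring⟩
      ⟨l.prod, by rw [← h1]; ring⟩ ⟨q, rfl⟩ ⟨q * r, by ring⟩ (by nlinarith)
      (by have : p * q * 1 < p * q * r := by gcongr
          nlinarith)
    have : p * q * 1 < p * q * r := by gcongr
    omega

theorem TT_equiv {H : Type*} [Group H] (h : TT G) (e : G ≃* H) (x : H) :
    (orderOf x).primeFactorsList.length ≤ 2 := by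
  rw [← e.symm.orderOf_eq x]
  exact TT_len h _

theorem TT_cit (h : TT G) : CIT G ∨ ∃ r : ℕ, r.Prime ∧ r ≠ 2 ∧ ∃ x : G, orderOf x = 2 * r := by
  by_contra! e
  obtain ⟨e1, e2⟩ := e
  refine e1 fun x ⟨m, hm⟩ => ?_
  rw [← two_mul] at hm
  by_cases h1 : m = 1
  · exact orderOf_dvd_iff_pow_eq_one.1 (by rw [hm, h1]; norm_num)
  obtain ⟨r, hr, k, hk⟩ := Nat.exists_prime_and_dvd h1
  by_cases h2 : r = 2
  · subst h2
    have := TT_two h Nat.prime_two (m := 4) (n := orderOf x) (a := x) (b := x) ⟨k, by rw [hm, hk]; ring⟩ dvd_rfl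
      (by norm_num) ⟨m, hm⟩ (by norm_num) (by omega)
    rw [this, pow_orderOf_eq_one]
  · obtain ⟨y, hy⟩ := ex_ord (a := x) (m := 2 * r) ⟨k, by rw [hm, hk]; ring⟩
    exact absurd hy (e2 r hr h2 y)

section SW
variable {V A : Subgroup G} {q : ℕ}

theorem comm_of_sq {X : Subgroup G} (h : ∀ x ∈ X, x * x = 1) {a b : G} (ha : a ∈ X) (hb : b ∈ X) :
    a * b = b * a := by
  have h1 := h _ (X.mul_mem ha hb)
  have h2 := inv_eq_of_mul_eq_one_right h1
  rw [← h2, mul_inv_rev, inv_eq_of_mul_eq_one_right (h a ha), inv_eq_of_mul_eq_one_right (h b hb)]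

theorem Cf.symm (h : Cf V A q) : Cf A V q :=
  ⟨h.two, h.eA, h.eV, h.cA, h.cV, by rw [inf_comm]; exact h.cZ, by rw [sup_comm]; exact h.cS, h.nA, h.nV,
    fun v hv a ha e => (h.comm a ha v hv e.symm).symm⟩

theorem Cf.mem (h : Cf V A q) {s : G} (hs : s ∈ V ⊔ A) : ∃ v ∈ V, ∃ a ∈ A, s = v * a := by
  have : ((V ⊔ A : Subgroup G) : Set G) = (V : Set G) * (A : Set G) := coe_mul_of_right_le_normalizer_left V A h.nV
  obtain ⟨v, hv, a, ha, e⟩ := this.le hs
  exact ⟨v, hv, a, ha, e.symm⟩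

theorem Cf.invol (h : Cf V A q) {s : G} (hs : s ∈ V ⊔ A) (h2 : s * s = 1) : s ∈ V ∨ s ∈ A := by
  obtain ⟨v, hv, a, ha, rfl⟩ := h.mem hs
  have h3 := inv_eq_of_mul_eq_one_right h2
  rw [mul_inv_rev, inv_eq_of_mul_eq_one_right (h.eA a ha), inv_eq_of_mul_eq_one_right (h.eV v hv)] at h3
  rcases h.comm v hv a ha h3.symm with e | e
  exacts [.inr (A.mul_mem e ha), .inl (V.mul_mem hv e)]

theorem Cf.elem (h : Cf V A q) {B : Subgroup G} (hB : B ≤ V ⊔ A) (e : ∀ x ∈ B, x * x = 1) :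
    B ≤ V ∨ B ≤ A := by
  by_contra! c
  obtain ⟨⟨x, hx, x1⟩, y, hy, y1⟩ := And.intro (SetLike.not_le_iff_exists.1 c.1) (SetLike.not_le_iff_exists.1 c.2)
  have x2 := (h.invol (hB hx) (e x hx)).resolve_left x1
  have y2 := (h.invol (hB hy) (e y hy)).resolve_right y1
  rcases h.invol (hB (B.mul_mem hx hy)) (e _ (B.mul_mem hx hy)) with r | r
  exacts [x1 ((V.mul_mem_cancel_right y2).1 r), y1 ((A.mul_mem_cancel_left x2).1 r)]

theorem Cf.big (h : Cf V A q) {B : Subgroup G} (hB : B ≤ V ⊔ A) (e : ∀ x ∈ B, x * x = 1)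
    (c : Nat.card B = q ^ 2) : B = V ∨ B = A :=
  (h.elem hB e).imp (fun r => eq_of_le_of_card_ge r (by rw [c, h.cV]))
    fun r => eq_of_le_of_card_ge r (by rw [c, h.cA])

theorem Cf.ex (h : Cf V A q) : ∃ v ∈ V, v ∉ A := by
  by_contra! c
  have h1 := h.cZ
  have h2 := h.two
  rw [inf_eq_left.2 c, h.cV] at h1
  nlinarith

theorem Cf.ne (h : Cf V A q) : V ≠ A := fun e => let ⟨_, a, b⟩ := h.ex; b (e ▸ a)

theorem SW (h : Cf V A q) {y : G} (h1 : y ∈ normalizer ((V ⊔ A : Subgroup G) : Set G))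
    (h2 : y * y ∈ V ⊔ A) (h3 : ∀ s ∈ V ⊔ A, (y * s) ^ 4 = 1) : y ∈ normalizer (V : Set G) := by
  have big : ∀ B : Subgroup G, B ≤ V ⊔ A → (∀ x ∈ B, x * x = 1) → Nat.card B = q ^ 2 →
      FT.cj y B = V ∨ FT.cj y B = A := fun B hB e c => h.big
    (fun x hx => by
      obtain ⟨b, hb, rfl⟩ := hx
      exact (mem_normalizer_iff.1 h1 b).1 (hB hb))
    (by rintro _ ⟨b, hb, rfl⟩; rw [← map_mul, e b hb, map_one]) (by rw [FT.card_cj, c])
  rcases big V le_sup_left h.eV h.cV with e | e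
  · exact FT.mem_normalizer_of_cj_le e.le
  exfalso
  have e' : FT.cj y A = V := (big A le_sup_right h.eA h.cA).resolve_right fun e' =>
    h.ne (map_injective (MulAut.conj y).injective (e.trans e'.symm))
  have c2 : y * y * (y * y) = 1 := by simpa [pow_succ, mul_assoc] using h3 1 (one_mem _)
  have cy : y * (y * y) * y⁻¹ = y * y := by group
  have cZ : y * y ∈ V ∧ y * y ∈ A := by
    rcases h.invol h2 c2 with r | r
    · exact ⟨r, cy ▸ e.le (FT.conj_mem_cj r)⟩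
    · exact ⟨cy ▸ e'.le (FT.conj_mem_cj r), r⟩
  obtain ⟨v, hv, v1⟩ := h.ex
  have a1 : y * v * y⁻¹ ∈ A := e.le (FT.conj_mem_cj hv)
  have a2 : y * v * y⁻¹ ∉ V := fun r => v1 (by
    rw [← e'] at r
    simpa [mul_assoc] using FT.mem_cj.1 r)
  generalize hc : y * y = c at cZ c2
  have k1 : (y * v) ^ 4 = (y * v * y⁻¹ * c * v) * (y * v * y⁻¹ * c * v) := by rw [← hc]; simp only [pow_succ]; group
  generalize y * v * y⁻¹ = a at a1 a2 k1
  rw [h3 v (mem_sup_left hv)] at k1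
  rcases h.invol (mul_mem (mul_mem (mem_sup_right a1) (mem_sup_right cZ.2)) (mem_sup_left hv)) k1.symm with r | r
  · exact a2 ((V.mul_mem_cancel_right cZ.1).1 ((V.mul_mem_cancel_right hv).1 r))
  · exact v1 ((A.mul_mem_cancel_left (A.mul_mem a1 cZ.2)).1 r)

end SW

theorem fm_aux {N W : Type*} [Group N] [Finite N] [CommGroup W] [Finite W] (ρ : N →* MulAut W) {U : Subgroup N}
    {k : N} {n : ℕ} (h3 : k ∈ normalizer (U : Set N)) (hc : Nat.Coprime (Nat.card U) (Nat.card W)) (hn : 0 < n)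
    (hf : ∀ i, 0 < i → i < n → ∀ u ∈ U, u * k ^ i = k ^ i * u → u = 1)
    (h : ∀ v, ∏ i ∈ Finset.range n, ρ (k ^ i) v = 1) : ∀ u ∈ U, ∀ v, ρ u v = v := by
  classical
  haveI := Fintype.ofFinite U
  intro a ha v
  have fix : ∀ w, ρ a (∏ u : U, ρ u w) = ∏ u : U, ρ u w := fun w => by
    rw [map_prod]
    exact Fintype.prod_equiv (Equiv.mulLeft (⟨a, ha⟩ : U)) _ _ fun u => by simp
  have h1 : ∀ u : U, ∏ i ∈ Finset.range n, ρ (u * k ^ i * (u : N)⁻¹) v = 1 := fun u => by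
    have := congrArg (ρ u) (h (ρ (u : N)⁻¹ v))
    rw [map_prod, map_one] at this
    simpa using this
  have h2 : ∀ i, 0 < i → i < n → ∏ u : U, ρ (u * k ^ i * (u : N)⁻¹) v = ∏ u : U, ρ u (ρ (k ^ i) v) := by
    intro i i0 i1
    have m : ∀ u : U, (u : N) * (k ^ i * (u : N)⁻¹ * (k ^ i)⁻¹) ∈ U := fun u =>
      U.mul_mem u.2 ((mem_normalizer_iff.1 (pow_mem h3 i) _).1 (U.inv_mem u.2))
    have inj : Function.Injective fun u : U => (⟨_, m u⟩ : U) := fun x y e => by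
      have e1 : (x : N) * (k ^ i * (x : N)⁻¹ * (k ^ i)⁻¹) = y * (k ^ i * (y : N)⁻¹ * (k ^ i)⁻¹) :=
        congrArg Subtype.val e
      have := hf i i0 i1 _ (U.mul_mem (U.inv_mem y.2) x.2) (by
        calc (y : N)⁻¹ * x * k ^ i = (y : N)⁻¹ * (x * (k ^ i * (x : N)⁻¹ * (k ^ i)⁻¹)) * k ^ i * x := by group
          _ = _ := by rw [e1]; group)
      exact Subtype.ext (inv_mul_eq_one.1 this).symm
    refine Fintype.prod_bijective _ (Finite.injective_iff_bijective.1 inj) _ _ fun u => ?_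
    rw [← MulAut.mul_apply, ← map_mul]
    congr 2
    simp [mul_assoc]
  obtain ⟨n, rfl⟩ := Nat.exists_eq_succ_of_ne_zero hn.ne'
  have h4 : ∏ i ∈ Finset.range (n + 1), ∏ u : U, ρ (u * k ^ i * (u : N)⁻¹) v = 1 := by
    rw [Finset.prod_comm]
    exact Finset.prod_eq_one fun u _ => h1 u
  rw [Finset.prod_range_succ', Finset.prod_congr rfl fun i hi => h2 (i + 1) i.succ_pos
    (by simpa using hi)] at h4
  simp only [pow_zero, mul_one, mul_inv_cancel, map_one, MulAut.one_apply, Finset.prod_const,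
    Finset.card_univ] at h4
  have h5 : ρ a (v ^ Nat.card U) = v ^ Nat.card U := by
    rw [Nat.card_eq_fintype_card, eq_inv_of_mul_eq_one_right h4, map_inv, map_prod]
    simp only [fix]
  rw [map_pow] at h5
  exact (powCoprime hc.symm).injective h5

theorem FM {V U : Subgroup G} {k : G} {n : ℕ} (hV : ∀ x ∈ V, ∀ y ∈ V, x * y = y * x)
    (h1 : U ≤ normalizer (V : Set G)) (h2 : k ∈ normalizer (V : Set G)) (h3 : k ∈ normalizer (U : Set G))
    (hc : Nat.Coprime (Nat.card U) (Nat.card V)) (hn : 0 < n)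
    (hf : ∀ i, 0 < i → i < n → ∀ u ∈ U, u * k ^ i = k ^ i * u → u = 1)
    (hUV : ∃ v ∈ V, ∃ u ∈ U, u * v ≠ v * u) : ∃ v ∈ V, (v * k) ^ n ≠ k ^ n := by
  by_contra! e
  obtain ⟨v, hv, u, hu, c⟩ := hUV
  letI : CommGroup V := { (inferInstance : Group V) with mul_comm := fun x y => Subtype.ext (hV _ x.2 _ y.2) }
  have p : ∀ (w : V) (m : ℕ), ((w : G) * k) ^ m = (∏ i ∈ Finset.range m,
      V.normalizerMonoidHom ((⟨k, h2⟩ : normalizer (V : Set G)) ^ i) w : V) * k ^ m := fun w m => by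
    induction m with
    | zero => simp
    | succ m ih =>
      rw [pow_succ, ih, Finset.prod_range_succ, coe_mul, normalizerMonoidHom_apply_apply_coe]
      simp [pow_succ, mul_assoc]
  have := fm_aux V.normalizerMonoidHom (U := U.subgroupOf (normalizer (V : Set G))) (k := ⟨k, h2⟩) (n := n)
    (mem_normalizer_iff.2 fun x => mem_normalizer_iff.1 h3 x)
    (by rwa [Nat.card_congr (subgroupOfEquivOfLe h1).toEquiv]) hn
    (fun i a b x hx r => Subtype.ext (hf i a b x hx (congrArg Subtype.val r)))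
    (fun w => Subtype.ext (by
      have := e w w.2
      rw [p] at this
      simpa using this)) ⟨u, h1 hu⟩ hu ⟨v, hv⟩
  have := congrArg Subtype.val this
  rw [normalizerMonoidHom_apply_apply_coe] at this
  exact c (mul_inv_eq_iff_eq_mul.1 this)

end Cfsg.Agent.OC
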