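import Cfsg.Agent.OC.B
import Cfsg.Agent.MC.PFb
import Cfsg.Agent.H3.Dihedral

/-! The projective plane of order 4 attached to a group with parabolics `2⁴ : L₂(4)`. -/

set_option autoImplicit false
set_option linter.unusedSectionVars false

namespace Cfsg.Agent.OC

open Subgroup Cfsg.Agent.MC Cfsg.Agent.FT MulAction

universe u
variable {G : Type u} [Group G] [Finite G] {V A P Q L X : Subgroup G} {g z y : G}

theorem Cf.cj {q : ℕ} (h : Cf V A q) (g : G) : Cf (cj g V) (cj g A) q := by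
  have e : ∀ {X : Subgroup G}, (∀ x ∈ X, x * x = 1) → ∀ x ∈ H1.cj g X, x * x = 1 := by
    rintro X hX _ ⟨x, hx, rfl⟩
    rw [← map_mul, hX x hx, map_one]
  refine ⟨h.two, e h.eV, e h.eA, (card_cj g V).trans h.cV, (card_cj g A).trans h.cA,
    by rw [← cj_inf, card_cj, h.cZ], by rw [← cj_sup, card_cj, h.cS],
    cj_normalizer g V ▸ cj_mono g h.nV, cj_normalizer g A ▸ cj_mono g h.nA, ?_⟩
  rintro _ ⟨v, hv, rfl⟩ _ ⟨a, ha, rfl⟩ e
  rw [← map_mul, ← map_mul] at e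
  exact (h.comm v hv a ha ((MulAut.conj g).injective e)).imp conj_mem_cj conj_mem_cj

/-- conjugation of subgroups -/
@[reducible] def cjA : MulAction G (Subgroup G) where
  smul := cj
  one_smul := cj_one
  mul_smul := cj_mul

attribute [local instance] cjA

/-- the common hypothesis -/
structure LH (V A : Subgroup G) : Prop where
  c : CIT G
  f : Cf V A 4
  s : Syl 2 (V ⊔ A) ⊤
  o : OneCl G

namespace LH

variable (h : LH V A)
include h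

theorem symm : LH A V := ⟨h.c, h.f.symm, sup_comm V A ▸ h.s, h.o⟩

theorem cjh (g : G) : LH (cj g V) (cj g A) :=
  ⟨h.c, h.f.cj g, by simpa only [cj_sup, cj_top] using h.s.cj g, h.o⟩

theorem sN : Syl 2 (V ⊔ A) 𝐍(V) := h.s.of_le (sup_le le_normalizer h.f.nV) le_top

theorem pV : IsPGroup 2 V := h.s.isPGroup.to_le le_sup_left

theorem nc : cj g V ≠ A := fun e => by
  obtain ⟨m, hm, e1⟩ := (sup_comm A V ▸ h.symm.sN).exists_cj_eq (Q := cj g (V ⊔ A))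
    (by have := (h.cjh g).sN; rwa [← cj_sup, e] at this)
  rw [← cj_mul] at e1
  replace e : cj (m * g) V = A := by rw [cj_mul, e, cj_eq_iff_mem_normalizer.2 hm]
  generalize m * g = y at e e1
  have h1 : cj y A = V := (h.f.big (e1 ▸ cj_mono y le_sup_right) (h.cjh y).f.eA (h.cjh y).f.cA).resolve_right
    fun e2 => h.f.ne (cj_injective y (e.trans e2.symm))
  refine h.f.ne ((cj_eq_iff_mem_normalizer.2 ?_).symm.trans e)
  rcases (orderOf y).even_or_odd with h2 | ⟨k, h2⟩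
  · exact h.sN.le (h.s.le_of_le_normalizer (Q := zpowers y) (fun ⟨_, n, rfl⟩ => ⟨2, Subtype.ext (by
      change (y ^ n) ^ 4 = 1
      rw [← zpow_natCast, ← zpow_mul, mul_comm n, zpow_mul, zpow_natCast, h.c y h2, one_zpow])⟩) le_top
      (zpowers_le.2 (cj_eq_iff_mem_normalizer.1 e1)) (mem_zpowers y))
  · have h3 : y * y ∈ 𝐍(V) := cj_eq_iff_mem_normalizer.1 (by rw [cj_mul, e, h1])
    convert pow_mem h3 (k + 1) using 1
    rw [← sq, ← pow_mul, mul_add, mul_one, pow_succ, ← h2, pow_orderOf_eq_one, one_mul]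

theorem big (hP : P ∈ orbit G V) (h1 : P ≤ cj g V ⊔ cj g A) : P = cj g V := by
  obtain ⟨k, rfl⟩ := hP
  exact ((h.cjh g).f.big h1 (h.cjh k).f.eV (h.cjh k).f.cV).resolve_right fun e =>
    h.nc (g := g⁻¹ * k) (by rw [cj_mul, show cj k V = _ from e, cj_inv_cj])

theorem sylN (hP : P ∈ orbit G V) (h1 : IsPGroup 2 X) (h2 : X ≤ 𝐍(P)) :
    ∃ g, cj g V = P ∧ X ≤ cj g V ⊔ cj g A := by
  obtain ⟨k, rfl⟩ := hP
  obtain ⟨m, hm, e⟩ := (h.cjh k).sN.exists_le_cj h1 h2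
  exact ⟨m * k, by rw [cj_mul, cj_eq_iff_mem_normalizer.2 hm]; rfl, by rwa [cj_mul, cj_mul, ← cj_sup]⟩

theorem pP (hP : P ∈ orbit G V) : IsPGroup 2 P := by obtain ⟨k, rfl⟩ := hP; exact (h.cjh k).pV

theorem inc (hP : P ∈ orbit G V) (hL : L ∈ orbit G A) (h1 : L ≤ 𝐍(P)) : ∃ g, cj g V = P ∧ cj g A = L := by
  obtain ⟨g, e, h2⟩ := h.sylN hP (h.symm.pP hL) h1
  exact ⟨g, e, (h.symm.big hL (sup_comm (cj g V) _ ▸ h2)).symm⟩

theorem inc' (hP : P ∈ orbit G V) (hL : L ∈ orbit G A) (h1 : L ≤ 𝐍(P)) : LH P L := by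
  obtain ⟨g, rfl, rfl⟩ := h.inc hP hL h1
  exact h.cjh g

theorem cen (h1 : z ∈ V ⊓ A) (z1 : z ≠ 1) : 𝐂[z] = V ⊔ A :=
  h.s.eq_of_le (fun x => ⟨2, Subtype.ext (by
    change x.1 ^ 4 = 1
    have h2 : Commute x.1 z := mem_cent1_iff.1 x.2
    rcases (orderOf x.1).even_or_odd with h3 | h3
    · exact h.c _ h3
    have h4 := h.f.eV z h1.1
    have h5 := h.c (x * z) (by
      rw [h2.orderOf_mul_eq_mul_orderOf_of_coprime, H3.orderOf_two_of_mul_self h4 z1]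
      · exact even_two.mul_left _
      · rw [H3.orderOf_two_of_mul_self h4 z1]; exact Nat.coprime_two_right.2 h3)
    rwa [h2.mul_pow, show z ^ 4 = z * z * (z * z) by rw [← sq, ← sq, ← pow_mul], h4, mul_one, mul_one] at h5)⟩)
    (sup_le (fun v hv => mem_cent1_iff.2 (comm_of_sq h.f.eV hv h1.1))
      fun v hv => mem_cent1_iff.2 (comm_of_sq h.f.eA hv h1.2)) le_top

theorem ex : ∃ z ∈ V ⊓ A, z ≠ 1 :=
  (ne_bot_iff_exists_ne_one.1 fun e : V ⊓ A = ⊥ => by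
    have := h.f.cZ; rw [e, card_bot] at this; omega).elim fun z hz =>
    ⟨z, z.2, fun e => hz (Subtype.ext e)⟩

theorem cz (h1 : z * z = 1) (z1 : z ≠ 1) : ∃ g, 𝐂[z] = cj g V ⊔ cj g A := by
  obtain ⟨y, h2, y1⟩ := h.ex
  obtain ⟨g, rfl⟩ := isConj_iff.1 (h.o y z (H3.orderOf_two_of_mul_self (h.f.eV y h2.1) y1)
    (H3.orderOf_two_of_mul_self h1 z1))
  exact ⟨g, by rw [← cj_cent1, h.cen h2 y1, cj_sup]⟩

theorem sq (hP : P ∈ orbit G V) (h1 : z ∈ P) : z * z = 1 := by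
  obtain ⟨k, rfl⟩ := hP; exact (h.cjh k).f.eV z h1

theorem leC (hP : P ∈ orbit G V) (h1 : z ∈ P) : P ≤ 𝐂[z] := fun _ hv =>
  mem_cent1_iff.2 (comm_of_sq (fun _ => h.sq hP) hv h1)

theorem ti (hP : P ∈ orbit G V) (hQ : Q ∈ orbit G V) (h1 : z ∈ P) (h2 : z ∈ Q) (z1 : z ≠ 1) : P = Q := by
  obtain ⟨g, e⟩ := h.cz (h.sq hP h1) z1
  rw [h.big hP (e ▸ h.leC hP h1), h.big hQ (e ▸ h.leC hQ h2)]

theorem fixp (h1 : z * z = 1) (z1 : z ≠ 1) :
    ∃ L ∈ orbit G A, L ≤ 𝐂[z] ∧ ∀ P ∈ orbit G V, z ∈ 𝐍(P) → L ≤ 𝐍(P) := by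
  obtain ⟨g, e⟩ := h.cz h1 z1
  refine ⟨_, ⟨g, rfl⟩, e ▸ le_sup_right, fun P hP h2 => ?_⟩
  obtain ⟨k, rfl, h3⟩ := h.sylN hP (IsPGroup.of_card (n := 1)
    (by rw [Nat.card_zpowers, H3.orderOf_two_of_mul_self h1 z1, pow_one])) (zpowers_le.2 h2)
  rcases (h.cjh k).f.invol (h3 (mem_zpowers z)) h1 with h4 | h4
  · rw [h.big hP (e ▸ h.leC hP h4)]; exact (h.cjh g).f.nV
  · exact (h.symm.big (g := g) ⟨k, rfl⟩ (sup_comm (cj g V) _ ▸ e ▸ h.symm.leC ⟨k, rfl⟩ h4)).ge.trans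
      (h.cjh k).f.nV

theorem uniq (hP : P ∈ orbit G V) (hQ : Q ∈ orbit G V) (hL : L ∈ orbit G A) (hX : X ∈ orbit G A)
    (e : P ≠ Q) (h1 : L ≤ 𝐍(P)) (h2 : L ≤ 𝐍(Q)) (h3 : X ≤ 𝐍(P)) (h4 : X ≤ 𝐍(Q)) : L = X := by
  by_contra h5
  have h6 := h.inc' hP hL h1
  have h7 : (P ⊓ L) ⊔ (P ⊓ X) = P := eq_of_le_of_card_ge (sup_le inf_le_left inf_le_left) (by
    rw [card_sup_of_inf_eq_bot, h6.f.cV, h6.f.cZ, (h.inc' hP hX h3).f.cZ]
    · rfl
    · exact fun x hx => mem_normalizer_of_conj_mem fun y hy => by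
        rwa [comm_of_sq h6.f.eV hx.1 hy.1, mul_inv_cancel_right]
    · exact eq_bot_iff.2 fun z hz => by_contra fun z1 => h5 (h.symm.ti hL hX hz.1.2 hz.2.2 z1))
  obtain ⟨g, rfl, h8⟩ := h.sylN hQ (h.pP hP) (h7 ▸ sup_le (inf_le_right.trans h2) (inf_le_right.trans h4))
  exact e (h.big hP h8)

theorem join (h1 : Lc 𝐍(V) V 4) (hQ : Q ∈ orbit G V) : ∃ L ∈ orbit G A, L ≤ 𝐍(V) ∧ L ≤ 𝐍(Q) := by
  by_contra! h0
  have hV := mem_orbit_self (M := G) V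
  have a1 : ∀ c ∈ 𝐍(V) ⊓ 𝐍(Q), c * c = 1 → c = 1 := fun c hc e => by_contra fun c1 => by
    obtain ⟨L, b1, -, b2⟩ := h.fixp e c1
    exact h0 L b1 (b2 V hV hc.1) (b2 Q hQ hc.2)
  have a2 : ∀ P ∈ orbit G V, ∀ Q ∈ orbit G V, ∀ z ∈ P, ∀ g, z ≠ 1 → g * z * g⁻¹ ∈ Q → cj g P = Q :=
    fun P hP Q hQ z hz g z1 e => h.ti (mem_orbit_of_mem_orbit g hP) hQ (conj_mem_cj hz) e (by simpa using z1)
  obtain ⟨z, ⟨hz, -⟩, z1⟩ := h.ex
  have z2 := h.f.eV z hz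
  have a3 : ∀ y ∈ Q, y ≠ 1 → ∃ t, t * z * t⁻¹ = y ∧ cj t V = Q ∧ cj t Q = V := fun y hy y1 => by
    have y2 := h.sq hQ hy
    rcases (orderOf (z * y)).even_or_odd with b1 | b1
    · obtain ⟨b2, b3, b4⟩ := H3.half_pow_central z2 y2 b1
      exact absurd (a1 _ ⟨cj_eq_iff_mem_normalizer.1 (a2 V hV V hV z hz _ z1 (by rwa [b3.eq, mul_inv_cancel_right])),
        cj_eq_iff_mem_normalizer.1 (a2 Q hQ Q hQ y hy _ y1 (by rwa [b4.eq, mul_inv_cancel_right]))⟩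
        (H3.mul_self_of_orderOf_two b2)) (H3.ne_one_of_orderOf_two b2)
    obtain ⟨n, b2⟩ := H3.exists_zpow_conj_of_odd z2 y2 b1
    have b3 : (z * y) ^ n * z * z * ((z * y) ^ n * z)⁻¹ = y := Eq.trans (by group) b2
    have b4 := a2 V hV Q hQ z hz _ z1 (b3.symm ▸ hy)
    refine ⟨_, b3, b4, ?_⟩
    rw [← b4, ← cj_mul, H3.zpow_mul_of_inverts (H3.left_inverts z2 y2), H3.refl_mul_self z2 (H3.left_inverts z2 y2),
      cj_one]
  choose! t t1 t2 t3 using a3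
  obtain ⟨k, rfl⟩ := hQ
  obtain ⟨y, ⟨hy, -⟩, y1⟩ := (h.cjh k).ex
  have a4 := Set.ncard_le_ncard_of_injOn (s := (cj k V : Set G) \ {1}) (t := (𝐍(V) ⊓ 𝐍(cj k V) : Subgroup G))
    (fun x => t y * t x) (fun x hx => mem_inf.2 ⟨cj_eq_iff_mem_normalizer.1 (by
      rw [cj_mul, t2 x hx.1 hx.2, t3 y hy y1]), cj_eq_iff_mem_normalizer.1 (by
      rw [cj_mul]; exact (congrArg _ (t3 x hx.1 hx.2)).trans (t2 y hy y1))⟩)
    fun x hx x' hx' e => by rw [← t1 x hx.1 hx.2, mul_left_cancel e, t1 x' hx'.1 hx'.2]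
  rw [Set.ncard_sdiff_singleton_of_mem (one_mem _), ← Nat.card_coe_set_eq, ← Nat.card_coe_set_eq,
    SetLike.coe_sort_coe, SetLike.coe_sort_coe, (h.cjh k).f.cV] at a4
  change ∀ c ∈ 𝐍(V) ⊓ 𝐍(cj k V), _ at a1
  have a5 : 𝐍(V) ⊓ 𝐍(cj k V) ≤ 𝐍(V) := inf_le_left
  generalize 𝐍(V) ⊓ 𝐍(cj k V) = D at a1 a4 a5
  obtain ⟨F, _, _, φ, _, -, f1, f2, f3⟩ := h1
  have f4 := F0_card (F := F)
  rw [f1] at f4
  have f5 : ♯((D.subgroupOf 𝐍(V)).map φ) = ♯D := by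
    rw [← Nat.card_congr (subgroupOfEquivOfLe a5).toEquiv]
    exact Nat.card_congr (Equiv.Set.imageOfInjOn φ _ fun x hx y hy e => Subtype.ext (mul_inv_eq_one.1
      (a1 _ (mul_mem hx (inv_mem hy)) (h.f.eV _ ((f3 (x * y⁻¹)).1 (by simp [e])))))).symm
  have f6 := (H3.odd_card_subgroup_iff D).2 fun x hx e =>
    H3.ne_one_of_orderOf_two e (a1 x hx (H3.mul_self_of_orderOf_two e))
  rw [← f5] at f6 a4
  generalize (D.subgroupOf 𝐍(V)).map φ = E at f6 a4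
  haveI := (F0_simple f1.ge).1
  have f7 := E.card_mul_index
  rcases E.normalCore_normal.eq_bot_or_eq_top with e | e
  · have f8 : E.normalCore.index ∣ E.index.factorial := by
      rw [normalCore_eq_ker, index_ker, index_eq_card, ← Nat.card_perm]
      exact card_subgroup_dvd_card (toPermHom _ (_ ⧸ E)).range
    have f9 : E.index ≤ 4 := by norm_num at f4 a4; nlinarith
    have := f8.trans (Nat.factorial_dvd_factorial f9)
    rw [e, index_bot] at this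
    rw [show Nat.card (L2 F) = 60 by simpa using f4] at this
    norm_num [Nat.factorial] at this
  · rw [eq_top_iff.2 (e.ge.trans E.normalCore_le), card_top, Nat.odd_iff] at f6
    norm_num at f4
    omega

theorem five (h1 : Lc 𝐍(A) A 4) : {P ∈ orbit G V | A ≤ 𝐍(P)}.ncard = 5 := by
  obtain ⟨F, _, _, φ, _, -, f1, f2, f3⟩ := h1
  obtain ⟨θ, -, -, -, -, -, f4⟩ := F4 (h.symm.sN.toSylow.mapSurjective f2)
  rw [← index_comap_of_surjective _ f2, comap_normalizer_eq_of_surjective _ f2, Sylow.coe_mapSurjective,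
    H1.IsSylowIn.coe_toSylow, comap_map_eq_self (H := (A ⊔ V).subgroupOf 𝐍(A))
      fun x hx => mem_subgroupOf.2 (mem_sup_left ((f3 x).1 hx)),
    ← subgroupOf_normalizer_eq h.symm.sN.le, f1] at f4
  have f5 := index_stabilizer 𝐍(A) V
  rw [show stabilizer 𝐍(A) V = 𝐍(A ⊔ V).subgroupOf 𝐍(A) from Subgroup.ext fun x => ?_, f4] at f5
  · refine Eq.trans ?_ f5.symm
    congr 1
    ext P
    refine ⟨fun ⟨a, b⟩ => ?_, fun ⟨m, e⟩ => ⟨⟨m, e⟩, ?_⟩⟩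
    · obtain ⟨g, c, d⟩ := h.inc a (mem_orbit_self A) b
      exact ⟨⟨g, cj_eq_iff_mem_normalizer.1 d⟩, c⟩
    · have := (h.cjh m).f.nV
      rwa [cj_eq_iff_mem_normalizer.2 m.2, show cj m.1 V = P from e] at this
  rw [mem_subgroupOf, ← cj_eq_iff_mem_normalizer, cj_sup, cj_eq_iff_mem_normalizer.2 x.2]
  exact ⟨fun e => congrArg _ e, fun e => (h.big (g := 1) ⟨x, rfl⟩ (by
    rw [cj_one, cj_one, sup_comm, ← e]; exact le_sup_right)).trans (cj_one V)⟩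

end LH

theorem La [IsSimpleGroup G] (hc : CIT G) {V A : Subgroup G} (h : Cf V A 4) (hS : FT.Syl 2 (V ⊔ A) ⊤)
    (h1 : Lc (normalizer (V : Set G)) V 4) (h2 : Lc (normalizer (A : Set G)) A 4) (h3 : OneCl G) :
    ∃ (Ω : Type u) (_ : MulAction G Ω) (𝓛 : Set (Set Ω)), PL G Ω 𝓛 := by
  classical
  replace h : LH V A := ⟨hc, h, hS, h3⟩
  have hV := mem_orbit_self (M := G) V
  have hA := mem_orbit_self (M := G) A
  let ln : Subgroup G → Set (orbit G V) := fun L => {P | L ≤ 𝐍(P.1)}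
  have a1 : ∀ g L (P : orbit G V), g • P ∈ ln (cj g L) ↔ P ∈ ln L := fun g L P => by
    change cj g L ≤ 𝐍(cj g P.1) ↔ _
    rw [← cj_normalizer, cj_le_cj_iff]; rfl
  have a2 : ∀ g L, (fun x => g • x) '' ln L = ln (cj g L) := fun g L => Set.ext fun P =>
    ⟨by rintro ⟨P, hP, rfl⟩; exact (a1 g L P).2 hP,
      fun hP => ⟨g⁻¹ • P, (a1 g L _).1 (by rwa [smul_inv_smul]), smul_inv_smul g P⟩⟩
  have a3 : ∀ L ∈ orbit G A, (ln L).ncard = 5 := by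
    rintro _ ⟨g, rfl⟩
    change (ln (cj g A)).ncard = 5
    rw [← a2, Set.ncard_image_of_injective _ (MulAction.injective g), ← h.five h2,
      ← Set.ncard_preimage_of_injective_subset_range Subtype.val_injective
        (s := {P ∈ orbit G V | A ≤ 𝐍(P)}) fun P hP => ⟨⟨P, hP.1⟩, rfl⟩]
    congr 1
    exact Set.ext fun P => (and_iff_right P.2).symm
  have a4 : ∀ P Q : orbit G V, ∃ L ∈ orbit G A, P ∈ ln L ∧ Q ∈ ln L := by
    rintro ⟨_, g, rfl⟩ Q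
    obtain ⟨L, b1, b2, b3⟩ := h.join h1 (g⁻¹ • Q).2
    exact ⟨_, mem_orbit_of_mem_orbit g b1, (a1 g L ⟨V, hV⟩).2 b2,
      smul_inv_smul g Q ▸ (a1 g L (g⁻¹ • Q)).2 b3⟩
  have a5 : ∀ L ∈ orbit G A, ∀ X ∈ orbit G A, ∀ P Q : orbit G V, P ≠ Q → P ∈ ln L → Q ∈ ln L →
      P ∈ ln X → Q ∈ ln X → L = X := fun L hL X hX P Q e =>
    h.uniq P.2 Q.2 hL hX fun e' => e (Subtype.ext e')
  have a6 : Nat.card (orbit G V) = 21 := by
    haveI := Fintype.ofFinite (orbit G V)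
    have b1 := Finset.card_biUnion (s := (Set.toFinite {L ∈ orbit G A | V ≤ 𝐍(L)}).toFinset)
      (t := fun L => (ln L).toFinset.erase ⟨V, hV⟩) fun L hL X hX e => Finset.disjoint_left.2 fun P b1 b2 => by
        simp only [Finset.mem_erase, Set.mem_toFinset, Finset.mem_coe, Set.Finite.mem_toFinset] at b1 b2 hL hX
        exact e (a5 L hL.1 X hX.1 P _ b1.1 b1.2 (h.symm.inc' hL.1 hV hL.2).f.nA b2.2
          (h.symm.inc' hX.1 hV hX.2).f.nA)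
    rw [Finset.sum_const_nat (m := 4) fun L hL => by
      rw [Set.Finite.mem_toFinset] at hL
      rw [Finset.card_erase_of_mem (Set.mem_toFinset.2 (h.symm.inc' hL.1 hV hL.2).f.nA),
        ← Set.ncard_eq_toFinset_card', a3 L hL.1], ← Set.ncard_eq_toFinset_card, h.symm.five h1,
      show Finset.biUnion _ _ = Finset.univ.erase ⟨V, hV⟩ from Finset.ext fun P => ?_,
      Finset.card_erase_of_mem (Finset.mem_univ _), Finset.card_univ, ← Nat.card_eq_fintype_card] at b1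
    · omega
    simp only [Finset.mem_biUnion, Finset.mem_erase, Set.mem_toFinset, Set.Finite.mem_toFinset,
      Finset.mem_univ, and_true]
    refine ⟨fun ⟨_, _, b, _⟩ => b, fun b => ?_⟩
    obtain ⟨L, b2, b3, b4⟩ := a4 ⟨V, hV⟩ P
    exact ⟨L, ⟨b2, (h.inc' hV b2 b3).f.nA⟩, b, b4⟩
  have a7 : ∀ (g : G) (P : orbit G V), g • P = P ↔ g ∈ 𝐍(P.1) := fun g P =>
    Subtype.ext_iff.trans cj_eq_iff_mem_normalizer
  have a8 : ∀ P ∉ ln A, ∀ a ∈ A, a • P = P → a = 1 := fun P hP a ha e => by_contra fun e1 => by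
    obtain ⟨L, b1, b2, b3⟩ := h.fixp (h.f.eA a ha) e1
    obtain ⟨g, b4⟩ := h.symm.cz (h.f.eA a ha) e1
    rw [h.symm.big b1 (b4 ▸ b2), ← h.symm.big hA (b4 ▸ h.symm.leC hA ha)] at b3
    exact hP (b3 _ P.2 ((a7 a P).1 e))
  refine ⟨orbit G V, inferInstance, ln '' orbit G A, a6, ?_, fun P Q _ => ?_, ?_, ?_, fun g hg => ?_, ?_,
    ?_, _, ⟨A, hA, rfl⟩, A, h.f.eA, fun a ha P hP => (a7 a P).2 (hP ha), fun P hP Q hQ => ?_, a8⟩
  · rintro _ ⟨L, hL, rfl⟩; exact a3 L hL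
  · obtain ⟨L, b1, b2⟩ := a4 P Q
    exact ⟨_, ⟨L, b1, rfl⟩, b2⟩
  · rintro _ ⟨L, hL, rfl⟩ _ ⟨X, hX, rfl⟩ P Q e b1 b2 b3 b4
    rw [a5 L hL X hX P Q e b1 b2 b3 b4]
  · rintro g _ ⟨L, hL, rfl⟩
    exact ⟨_, mem_orbit_of_mem_orbit g hL, (a2 g L).symm⟩
  · rcases (toPermHom G (orbit G V)).normal_ker.eq_bot_or_eq_top with e | e
    · exact mem_bot.1 (e ▸ Equiv.ext hg)
    haveI : Subsingleton (orbit G V) := ⟨fun P Q => by
      obtain ⟨k, rfl⟩ := exists_smul_eq G P Q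
      exact (congrArg (· P) (show toPermHom G _ k = 1 from (e ▸ mem_top k : k ∈ MonoidHom.ker _))).symm⟩
    have := Finite.card_le_one_iff_subsingleton.2 this
    omega
  · obtain ⟨F, _, _, φ, _, -, f1, f2, f3⟩ := h1
    have b1 := F0_card (F := F)
    have b2 := φ.ker.card_mul_index
    have b3 := (stabilizer G V).card_mul_index
    rw [index_stabilizer, ← Nat.card_coe_set_eq, a6,
      show stabilizer G V = 𝐍(V) from Subgroup.ext fun _ => cj_eq_iff_mem_normalizer, ← b2, index_ker,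
      MonoidHom.range_eq_top.2 f2, card_top, show φ.ker = V.subgroupOf 𝐍(V) from Subgroup.ext f3,
      Nat.card_congr (subgroupOfEquivOfLe le_normalizer).toEquiv, h.f.cV,
      show Nat.card (L2 F) = 60 by simpa [f1] using b1] at b3
    exact b3.symm
  · obtain ⟨z, hz, z1⟩ := h.ex
    refine eq_top_iff.2 (((normalClosure_normal (s := {z})).eq_bot_or_eq_top.resolve_left fun e =>
      z1 (mem_bot.1 (e ▸ subset_normalClosure rfl))).ge.trans (closure_mono fun y hy => ?_))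
    obtain ⟨w, rfl, b0⟩ := Group.mem_conjugatesOfSet_iff.1 hy
    obtain ⟨g, rfl⟩ := isConj_iff.1 b0
    refine ⟨⟨_, g, rfl⟩, _, ⟨_, ⟨g, rfl⟩, rfl⟩, (h.cjh g).f.nV,
      fun P hP => (a7 _ P).2 (hP (conj_mem_cj hz.2)), ?_⟩
    rintro _ ⟨L, hL, rfl⟩ b1 P hP
    rw [← cj_eq_iff_mem_normalizer.2 ((h.inc' ⟨g, rfl⟩ hL b1).f.nA (conj_mem_cj hz.1))]
    exact (a1 _ L P).2 hP
  have b1 : (fun a : G => a • P) '' A = (ln A)ᶜ := Set.eq_of_subset_of_ncard_le (by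
    rintro _ ⟨a, ha, rfl⟩ e
    exact hP ((a1 a A P).1 (by rwa [cj_eq_of_mem ha]))) (by
    have := Set.ncard_add_ncard_compl (ln A)
    rw [Set.InjOn.ncard_image fun a ha b hb e => (inv_mul_eq_one.1 (a8 P hP _ (mul_mem (inv_mem hb) ha)
      (by rw [mul_smul, show a • P = _ from e, inv_smul_smul]))).symm, ← Nat.card_coe_set_eq (A : Set G),
      SetLike.coe_sort_coe, h.f.cA]
    rw [a3 A hA, a6] at this
    omega)
  exact b1.ge hQ

end Cfsg.Agent.OC
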