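import Cfsg.Agent.OC.Lb1
import Cfsg.Agent.H4.L34

/-! A group generated by elations of a translation plane of order 4 is `L₃(4)`. -/

set_option autoImplicit false
set_option linter.unusedSectionVars false

namespace Cfsg.Agent.OC

open Subgroup H3 Matrix
open scoped LinearAlgebra.Projectivization

universe u
variable {G : Type u} [Group G] {Ω : Type u} [MulAction G Ω] {𝓛 : Set (Set Ω)}

theorem l_ext {v w : Fin 3 → F4} : v = w ↔ v 0 = w 0 ∧ v 1 = w 1 ∧ v 2 = w 2 := by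
  simp [funext_iff, Fin.forall_fin_succ]

theorem l_dot (f v : Fin 3 → F4) : f ⬝ᵥ v = f 0 * v 0 + f 1 * v 1 + f 2 * v 2 := by
  simp [dotProduct, Fin.sum_univ_three]

theorem l_D3 : ∀ a b a' b' : F4, (a', b') ≠ 0 →
    (b' * a = a' * b ↔ ∃ t, t * a' = a ∧ t * b' = b) := by decide +kernel

theorem PL.coord (h : PL G Ω 𝓛) : ∃ pt : (Fin 3 → F4) → Ω,
    (∀ v w, v ≠ 0 → w ≠ 0 → (pt v = pt w ↔ ∃ t : F4, t • w = v)) ∧ (∀ x, ∃ v, v ≠ 0 ∧ pt v = x) ∧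
    (∀ m ∈ 𝓛, ∃ f : Fin 3 → F4, f ≠ 0 ∧ ∀ v, v ≠ 0 → (pt v ∈ m ↔ f ⬝ᵥ v = 0)) ∧
    ∀ f : Fin 3 → F4, f ≠ 0 → ∃ m ∈ 𝓛, ∀ v, v ≠ 0 → (pt v ∈ m ↔ f ⬝ᵥ v = 0) := by
  obtain ⟨l, hl, A, hA, h1, h2, h3⟩ := h.trans
  obtain ⟨α, a1, a2, a3, a4, a5⟩ := h.alpha hl hA h1 h2 h3
  obtain ⟨O, hO⟩ := h.off hl
  haveI : Nonempty Ω := ⟨O⟩
  choose! d d1 d2 using fun u (hu : u ≠ 0) => h.cen hl hA h1 h2 h3 (a2 u) fun e => hu (a3 u e)
  have nl := fun u => h.nl hl hA h1 h2 h3 (a2 u) hO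
  have d3 : ∀ u v, u ≠ 0 → v ≠ 0 → (d v = d u ↔ u.2 * v.1 = u.1 * v.2) := fun u v hu hv => by
    rw [← a5 _ (d1 u hu) u hu (d2 u hu)]
    exact ⟨fun e => e ▸ d2 v hv, fun e => by_contra fun e' =>
      hv (a3 v (h.disj hl hA h1 h2 h3 (d1 v hv) (d1 u hu) e' (d2 v hv) e))⟩
  have d4 : ∀ p ∈ l, ∃ u, u ≠ 0 ∧ d u = p := fun p hp => by
    haveI := Nat.finite_of_card_ne_zero (h.card_ZZ hl hA h1 h2 h3 hp ▸ four_ne_zero :
      Nat.card (ZZ 𝓛 A hA p) ≠ 0)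
    haveI := Finite.one_lt_card_iff_nontrivial.1 (h.card_ZZ hl hA h1 h2 h3 hp ▸ by norm_num :
      1 < Nat.card (ZZ 𝓛 A hA p))
    obtain ⟨⟨a, ha⟩, e⟩ := exists_ne (1 : ZZ 𝓛 A hA p)
    obtain ⟨u, rfl⟩ := a4 a ha.1
    have u0 : u ≠ 0 := by rintro rfl; exact e (Subtype.ext (by simpa using a1 0 0))
    exact ⟨u, u0, by_contra fun e' =>
      u0 (a3 u (h.disj hl hA h1 h2 h3 (d1 u u0) hp e' (d2 u u0) ha))⟩
  have n0 : ∀ v : Fin 3 → F4, v ≠ 0 → v 2 = 0 → (v 0, v 1) ≠ 0 := fun v hv e e' =>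
    hv (l_ext.2 ⟨congrArg Prod.fst e', congrArg Prod.snd e', e⟩)
  let pt : (Fin 3 → F4) → Ω := fun v => if v 2 = 0 then d (v 0, v 1) else α (v 0 / v 2, v 1 / v 2) • O
  have p1 : ∀ v, v 2 = 0 → pt v = d (v 0, v 1) := fun v e => if_pos e
  have p2 : ∀ v, v 2 ≠ 0 → pt v = α (v 0 / v 2, v 1 / v 2) • O := fun v e => if_neg e
  have p3 : ∀ v, v ≠ 0 → (pt v ∈ l ↔ v 2 = 0) := fun v hv =>
    ⟨fun e => by_contra fun e' => nl _ (p2 v e' ▸ e), fun e => p1 v e ▸ d1 _ (n0 v hv e)⟩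
  have p4 : ∀ u w : F4 × F4, u ≠ 0 → ∀ m ∈ 𝓛, d u ∈ m → α w • O ∈ m → ∀ v, v ≠ 0 →
      (pt v ∈ m ↔ ![u.2, -u.1, u.1 * w.2 - u.2 * w.1] ⬝ᵥ v = 0) := fun u w hu m hm m1 m2 v hv => by
    rw [l_dot]
    simp only [cons_val_zero, cons_val_one, cons_val]
    by_cases e : v 2 = 0
    · rw [p1 v e, e, mul_zero, add_zero, neg_mul, add_neg_eq_zero, ← d3 u (v 0, v 1) hu (n0 v hv e)]
      exact ⟨fun e' => by_contra fun e'' => nl w
        (h.uniq _ hm _ hl _ _ e'' e' m1 (d1 _ (n0 v hv e)) (d1 u hu) ▸ m2), fun e' => e' ▸ m1⟩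
    · rw [p2 v e, ← sub_add_cancel (v 0 / v 2, v 1 / v 2) w, a1, mul_smul,
        h.mem_ZZ hl hA h1 h2 h3 (d1 u hu) hm m1 (nl w) m2 (a2 _), a5 _ (d1 u hu) u hu (d2 u hu)]
      simp only [Prod.fst_sub, Prod.snd_sub]
      constructor <;> intro e' <;> field_simp at e' ⊢ <;> linear_combination e'
  refine ⟨pt, fun v w hv hw => ?_, fun x => ?_, fun m hm => ?_, fun f hf => ?_⟩
  · simp only [l_ext, Pi.smul_apply, smul_eq_mul]
    by_cases e : v 2 = 0 <;> by_cases e' : w 2 = 0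
    · rw [p1 v e, p1 w e', d3 _ _ (n0 w hw e') (n0 v hv e), l_D3 _ _ _ _ (n0 w hw e')]
      simp [e, e']
    · refine iff_of_false (fun k => e' ((p3 w hw).1 (k ▸ (p3 v hv).2 e))) fun ⟨t, k1, k2, k3⟩ => ?_
      obtain rfl := (mul_eq_zero.1 (k3.trans e)).resolve_right e'
      exact hv (l_ext.2 ⟨by simpa using k1.symm, by simpa using k2.symm, e⟩)
    · exact iff_of_false (fun k => e ((p3 v hv).1 (k ▸ (p3 w hw).2 e'))) fun ⟨t, _, _, k3⟩ =>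
        e (by rw [← k3, e', mul_zero])
    rw [p2 v e, p2 w e']
    refine ⟨fun k => ?_, fun ⟨t, k1, k2, k3⟩ => ?_⟩
    · have k1 := a1 ((v 0 / v 2, v 1 / v 2) - (w 0 / w 2, w 1 / w 2)) (w 0 / w 2, w 1 / w 2)
      rw [sub_add_cancel, h.free hl hA h1 h2 h3 (a2 _) (a2 _) hO k] at k1
      have k2 := Prod.mk.inj (sub_eq_zero.1 (a3 _ (right_eq_mul.1 k1)))
      exact ⟨v 2 / w 2, by rw [div_mul_comm, ← k2.1, div_mul_cancel₀ _ e],
        by rw [div_mul_comm, ← k2.2, div_mul_cancel₀ _ e], div_mul_cancel₀ _ e'⟩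
    · have t0 : t ≠ 0 := by rintro rfl; exact e (by simpa using k3.symm)
      rw [← k1, ← k2, ← k3, mul_div_mul_left _ _ t0, mul_div_mul_left _ _ t0]
  · by_cases e : x ∈ l
    · obtain ⟨u, u0, rfl⟩ := d4 x e
      exact ⟨![u.1, u.2, 0], fun k => u0 (Prod.ext (l_ext.1 k).1 (l_ext.1 k).2.1), p1 _ rfl⟩
    · obtain ⟨a, ha, rfl⟩ := h2 O hO x e
      obtain ⟨u, rfl⟩ := a4 a ha
      exact ⟨![u.1, u.2, 1], fun k => one_ne_zero (l_ext.1 k).2.2, by rw [p2 _ one_ne_zero]; simp⟩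
  · by_cases e : m = l
    · exact ⟨![0, 0, 1], fun k => one_ne_zero (l_ext.1 k).2.2, fun v hv => by rw [l_dot]; simp [e, p3 v hv]⟩
    obtain ⟨p, k1, k2⟩ := h.meet hl hm
    obtain ⟨x, k3, k4⟩ := h.two hm p
    obtain ⟨u, u0, rfl⟩ := d4 p k1
    obtain ⟨a, ha, rfl⟩ := h2 O hO x fun k => e (h.uniq _ hm _ hl _ _ k4 k3 k2 k k1)
    obtain ⟨w, rfl⟩ := a4 a ha
    exact ⟨_, fun k => u0 (Prod.ext (neg_eq_zero.1 (l_ext.1 k).2.1) (l_ext.1 k).1), p4 u w u0 m hm k2 k3⟩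
  · by_cases e : (-f 1, f 0) = 0
    · have k1 : f 0 = 0 := congrArg Prod.snd e
      have k2 : f 1 = 0 := neg_eq_zero.1 (congrArg Prod.fst e)
      exact ⟨l, hl, fun v hv => by
        simp [p3 v hv, l_dot, k1, k2, show f 2 ≠ 0 from fun k => hf (l_ext.2 ⟨k1, k2, k⟩)]⟩
    obtain ⟨w, hw⟩ : ∃ w : F4 × F4, -f 1 * w.2 - f 0 * w.1 = f 2 := by
      revert e; generalize f 0 = a, f 1 = b, f 2 = c; revert a b c; decide +kernel
    obtain ⟨m, hm, k1, k2⟩ := h.join (d (-f 1, f 0)) (α w • O) fun k => nl w (k ▸ d1 _ e)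
    exact ⟨m, hm, fun v hv => by rw [p4 _ w e m hm k1 k2 v hv, hw, l_dot, l_dot]; simp⟩

/-- transvections -/
def tv (p f : Fin 3 → F4) (h : f ⬝ᵥ p = 0) : SpecialLinearGroup (Fin 3) F4 :=
  ⟨1 + vecMulVec p f, by
    rw [l_dot] at h
    simp [det_fin_three, vecMulVec_apply]
    linear_combination h⟩

theorem tv_smul (p f : Fin 3 → F4) (h : f ⬝ᵥ p = 0) (v : Fin 3 → F4) :
    tv p f h • v = v + (f ⬝ᵥ v) • p := by
  change (1 + vecMulVec p f) *ᵥ v = _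
  rw [add_mulVec, one_mulVec, vecMulVec_mulVec]; simp

theorem Lb [Finite G] {Ω : Type u} [MulAction G Ω] {𝓛 : Set (Set Ω)} (h : PL G Ω 𝓛) : L34 G := by
  obtain ⟨pt, h1, h2, h3, h4⟩ := h.coord
  let e : ℙ F4 (Fin 3 → F4) ≃ Ω := Equiv.ofBijective (Projectivization.lift (fun v => pt v.1)
    fun a b t k => (h1 _ _ a.2 b.2).2 ⟨t, k.symm⟩) ⟨fun x y k => by
      induction x using Projectivization.ind
      induction y using Projectivization.ind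
      exact (Projectivization.mk_eq_mk_iff' _ _ _ _ _).2 ((h1 _ _ ‹_› ‹_›).1 k), fun x => by
      obtain ⟨v, hv, rfl⟩ := h2 x
      exact ⟨.mk _ v hv, rfl⟩⟩
  let φ : ProjectiveSpecialLinearGroup (Fin 3) F4 →* Equiv.Perm Ω :=
    e.permCongrHom.toMonoidHom.comp Projectivization.PSLAction.toPermHom
  have f1 : Function.Injective φ :=
    e.permCongrHom.injective.comp ProjectiveSpecialLinearGroup.toPermHom_injective
  have f2 : ∀ (g : SpecialLinearGroup (Fin 3) F4) v, v ≠ 0 → φ g (pt v) = pt (g • v) := fun g v hv => by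
    change e (g • e.symm (e (.mk _ v hv))) = _
    rw [e.symm_apply_apply]; rfl
  have f3 : Function.Injective (MulAction.toPermHom G Ω) :=
    (injective_iff_map_eq_one _).2 fun g k => h.faith g fun p => congrArg (· p) k
  have f4 : (MulAction.toPermHom G Ω).range ≤ φ.range := by
    rw [MonoidHom.range_eq_map, ← h.gen, map_le_iff_le_comap, closure_le]
    rintro z ⟨p, l, hl, hp, z1, z2⟩
    obtain ⟨f, f0, hf⟩ := h3 l hl
    obtain ⟨x, hx⟩ := h.off hl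
    have hx' : z • x ∉ l := fun k => hx (MulAction.injective z (z1 _ k) ▸ k)
    obtain ⟨p, p0, rfl⟩ := h2 p
    obtain ⟨v, v0, rfl⟩ := h2 x
    obtain ⟨w, w0, hw⟩ := h2 (z • pt v)
    obtain ⟨m, hm, m1, m2⟩ := h.join (pt v) (pt p) (by rintro k; exact hx (k ▸ hp))
    obtain ⟨g, -, hg⟩ := h3 m hm
    have a1 := (hf p p0).1 hp
    have a2 := mt (hf v v0).2 hx
    have a3 := mt (hf w w0).2 (hw ▸ hx')
    obtain ⟨s, hs⟩ : ∃ s : F4, s • p = (f ⬝ᵥ w) • v - (f ⬝ᵥ v) • w := by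
      by_cases k : (f ⬝ᵥ w) • v - (f ⬝ᵥ v) • w = 0
      · exact ⟨0, by rw [k, zero_smul]⟩
      refine (h1 _ _ k p0).1 (by_contra fun k' => hx (h.uniq _ hm _ hl _ _ k' ((hg _ k).2 ?_) m2
        ((hf _ k).2 ?_) hp ▸ m1))
      · simp [(hg v v0).1 m1, (hg w w0).1 (hw ▸ z2 m hm m2 _ m1)]
      · simp [mul_comm]
    have a4 : ((s / (f ⬝ᵥ v * f ⬝ᵥ w)) • f) ⬝ᵥ p = 0 := by simp [a1]
    generalize ht : s / (f ⬝ᵥ v * f ⬝ᵥ w) = t at a4
    have a5 : ∀ u : Fin 3 → F4, u ≠ 0 → tv p _ a4 • u ≠ 0 := fun u => (smul_ne_zero_iff_ne _).2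
    have a6 := h.elat hl hp (τ := fun y => φ (tv p _ a4) (z • y)) (fun n hn => by
        obtain ⟨k, k0, hk⟩ := h3 _ (h.inv z n hn)
        obtain ⟨n', hn', hk'⟩ := h4 (k - (k ⬝ᵥ p * t) • f) fun k1 => k0 (by
          have k2 := congrArg (· ⬝ᵥ p) k1
          simp only [sub_dotProduct, smul_dotProduct, a1, smul_zero, sub_zero, zero_dotProduct] at k2
          simpa [k2] using k1)
        refine ⟨n', hn', fun y hy => ?_⟩
        obtain ⟨u, u0, hu⟩ := h2 (z • y)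
        have := (hk u u0).1 ⟨y, hy, hu.symm⟩
        simp only [← hu, f2 _ u u0]
        rw [hk' _ (a5 u u0), tv_smul]
        simp [this, a1]; ring)
      (fun y hy => by
        obtain ⟨u, u0, rfl⟩ := h2 y
        simp [z1 _ hy, f2 _ u u0, tv_smul, (hf u u0).1 hy])
      (fun n hn k y hy => by
        obtain ⟨u, u0, hu⟩ := h2 (z • y)
        obtain ⟨c, -, hc⟩ := h3 n hn
        simp only [← hu, f2 _ u u0]
        rw [hc _ (a5 u u0), tv_smul]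
        simp [(hc p p0).1 k, (hc u u0).1 (hu ▸ z2 n hn k y hy)])
      hx (by
        simp only [← hw, f2 _ w w0]
        refine (h1 _ _ (a5 w w0) v0).2 ⟨f ⬝ᵥ w / f ⬝ᵥ v, ?_⟩
        rw [tv_smul, smul_dotProduct, ← ht, smul_eq_mul,
          show s / (f ⬝ᵥ v * f ⬝ᵥ w) * f ⬝ᵥ w = (f ⬝ᵥ v)⁻¹ * s by field_simp, mul_smul, hs, smul_sub,
          inv_smul_smul₀ a2, smul_smul, add_sub_cancel, div_eq_inv_mul])
    exact ⟨(tv p _ a4)⁻¹, by
      rw [map_inv, inv_eq_iff_mul_eq_one]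
      exact Equiv.ext a6⟩
  haveI := h.fin
  have f5 := eq_of_le_of_card_ge f4 (by
    rw [← Nat.card_congr (MonoidHom.ofInjective f1).toEquiv,
      ← Nat.card_congr (MonoidHom.ofInjective f3).toEquiv, h.cG, H4.card_L34 F4.card_eq])
  exact ⟨F4, inferInstance, inferInstance, F4.card_eq, ⟨((MonoidHom.ofInjective f3).trans
    (MulEquiv.subgroupCongr f5)).trans (MonoidHom.ofInjective f1).symm⟩⟩

end Cfsg.Agent.OC
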