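import Cfsg.Agent.OC.Def
import Cfsg.Agent.H3.F4

/-! Coordinates in a translation plane of order 4. -/

set_option autoImplicit false
set_option linter.unusedSectionVars false

namespace Cfsg.Agent.OC

open Subgroup H3

universe u
variable {G : Type u} [Group G] {Ω : Type u} [MulAction G Ω] {𝓛 : Set (Set Ω)}

namespace PL

variable (h : PL G Ω 𝓛) {l m : Set Ω} {p q x y O : Ω} {a : G}
include h

theorem fin : Finite Ω := Nat.finite_of_card_ne_zero (by rw [h.card]; norm_num)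

theorem two (hm : m ∈ 𝓛) (p : Ω) : ∃ x ∈ m, x ≠ p :=
  Set.exists_ne_of_one_lt_ncard (by rw [h.five m hm]; norm_num) p

theorem off (hm : m ∈ 𝓛) : ∃ x, x ∉ m := by
  by_contra! h1
  have := h.five m hm
  rw [Set.eq_univ_of_forall h1, Set.ncard_univ, h.card] at this
  omega

theorem meet (hl : l ∈ 𝓛) (hm : m ∈ 𝓛) : ∃ x ∈ l, x ∈ m := by
  classical
  haveI := h.fin
  haveI := Fintype.ofFinite Ω
  by_contra! h0
  obtain ⟨x, hx, -⟩ := h.two hm (h.off hm).choose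
  obtain ⟨y, hy, h1⟩ := h.two hm x
  have h2 : ∀ q ∈ l, x ≠ q := by rintro q hq rfl; exact h0 _ hq hx
  choose! L h3 h4 h5 using fun q hq => h.join x q (h2 q hq)
  have h6 := Finset.card_biUnion (s := l.toFinset) (t := fun q => (L q).toFinset.erase x)
    fun q hq q' hq' e => Finset.disjoint_left.2 fun z hz hz' => by
      simp only [Finset.mem_erase, Set.mem_toFinset, Finset.mem_coe] at hz hz' hq hq'
      have h7 := h.uniq _ (h3 q hq) _ (h3 q' hq') z x hz.1 hz.2 (h4 q hq) hz'.2 (h4 q' hq')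
      exact h0 x (h.uniq _ (h3 q hq) _ hl q q' e (h5 q hq) (h7 ▸ h5 q' hq') hq hq' ▸ h4 q hq) hx
  rw [Finset.sum_const_nat (m := 4) fun q hq => by
    rw [Set.mem_toFinset] at hq
    rw [Finset.card_erase_of_mem (Set.mem_toFinset.2 (h4 q hq)), ← Set.ncard_eq_toFinset_card',
      h.five _ (h3 q hq)], ← Set.ncard_eq_toFinset_card', h.five _ hl] at h6
  have h7 := Finset.card_le_card (t := (Finset.univ.erase x).erase y)
    (s := l.toFinset.biUnion fun q => (L q).toFinset.erase x) fun z hz => by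
      simp only [Finset.mem_erase, Set.mem_toFinset, Finset.mem_biUnion, Finset.mem_univ, and_true] at hz ⊢
      obtain ⟨q, hq, h8, h9⟩ := hz
      refine ⟨?_, h8⟩
      rintro rfl
      exact h0 q hq (h.uniq _ (h3 q hq) _ hm z x h1 h9 (h4 q hq) hy hx ▸ h5 q hq)
  rw [h6, Finset.card_erase_of_mem (by simp [h1]), Finset.card_erase_of_mem (by simp),
    Finset.card_univ, ← Nat.card_eq_fintype_card, h.card] at h7
  omega

/-- an elation is determined by its centre, its axis and one value -/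
theorem elat (hl : l ∈ 𝓛) (hp : p ∈ l) {τ : Ω → Ω} (h1 : ∀ m ∈ 𝓛, ∃ m' ∈ 𝓛, ∀ x ∈ m, τ x ∈ m')
    (h2 : ∀ x ∈ l, τ x = x) (h3 : ∀ m ∈ 𝓛, p ∈ m → ∀ x ∈ m, τ x ∈ m) (hx : x ∉ l) (h4 : τ x = x) (y : Ω) :
    τ y = y := by
  have key : ∀ x ∉ l, τ x = x → ∀ n ∈ 𝓛, x ∈ n → p ∈ n → ∀ y ∉ n, τ y = y := by
    intro x hx h4 n hn hxn hpn y hy
    by_cases hyl : y ∈ l
    · exact h2 y hyl
    obtain ⟨k, hk, k1, k2⟩ := h.join x y (by rintro rfl; exact hy hxn)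
    obtain ⟨k', hk', k3, k4⟩ := h.join p y (by rintro rfl; exact hy hpn)
    obtain ⟨q, q1, q2⟩ := h.meet hl hk
    obtain ⟨m', hm', h5⟩ := h1 k hk
    obtain rfl := h.uniq _ hm' _ hk x q (by rintro rfl; exact hx q1) (h4 ▸ h5 x k1) (h2 q q1 ▸ h5 q q2) k1 q2
    by_contra h6
    obtain rfl := h.uniq _ hk _ hk' _ _ h6 (h5 y k2) k2 (h3 _ hk' k3 y k4) k4
    exact hy (h.uniq _ hk _ hn x p (by rintro rfl; exact hx hp) k1 k3 hxn hpn ▸ k2)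
  obtain ⟨n, hn, n1, n2⟩ := h.join x p (by rintro rfl; exact hx hp)
  by_cases hy : y ∈ n
  swap; · exact key x hx h4 n hn n1 n2 y hy
  obtain ⟨q, q1, q2⟩ := h.two hl p
  obtain ⟨k, hk, k1, k2⟩ := h.join x q (by rintro rfl; exact hx q1)
  obtain ⟨z, z1, z2, z3⟩ : ∃ z ∈ k, z ≠ x ∧ z ≠ q := by
    by_contra! h5
    have := Set.ncard_le_ncard (s := k) (t := {x, q}) fun z hz => by
      by_cases e : z = x
      exacts [.inl e, .inr (h5 z hz e)]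
    have h6 := Set.ncard_pair (show x ≠ q by rintro rfl; exact hx q1)
    rw [h.five k hk] at this
    omega
  have z4 : z ∉ n := fun e => hx (h.uniq _ hn _ hl p q q2.symm n2
    (h.uniq _ hk _ hn z x z2 z1 k1 e n1 ▸ k2) hp q1 ▸ n1)
  have z5 : z ∉ l := fun e => hx (h.uniq _ hk _ hl z q z3 z1 k2 e q1 ▸ k1)
  obtain ⟨n', hn', n3, n4⟩ := h.join z p (by rintro rfl; exact z5 hp)
  by_cases e : y = p
  · rw [e, h2 p hp]
  exact key z z5 (key x hx h4 n hn n1 n2 z z4) n' hn' n3 n4 y fun e' =>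
    z4 (h.uniq _ hn' _ hn y p e e' n4 hy n2 ▸ n3)

end PL

/-- the translations with centre `p` -/
def ZZ (𝓛 : Set (Set Ω)) (A : Subgroup G) (hA : ∀ a ∈ A, a * a = 1) (p : Ω) : Subgroup G where
  carrier := {a | a ∈ A ∧ ∀ m ∈ 𝓛, p ∈ m → ∀ x ∈ m, a • x ∈ m}
  one_mem' := ⟨one_mem _, by simp⟩
  mul_mem' := fun ha hb => ⟨mul_mem ha.1 hb.1, fun m hm hp x hx => by
    rw [mul_smul]; exact ha.2 m hm hp _ (hb.2 m hm hp x hx)⟩
  inv_mem' := fun ha => by rwa [inv_eq_of_mul_eq_one_left (hA _ ha.1)]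

theorem l_D1 : ∀ u v : F4 × F4, (∀ w ∈ [u, v, u + v], w = 0 ∨ w.1 ≠ 0 ∧ w.2 ≠ 0 ∧ w.1 ≠ w.2) →
    u.2 * v.1 = u.1 * v.2 := by decide +kernel

theorem l_D2 : ∀ u : F4 × F4, u ≠ 0 →
    (Finset.univ.filter fun v : F4 × F4 => u.2 * v.1 = u.1 * v.2).card = 4 := by decide +kernel

namespace PL

variable (h : PL G Ω 𝓛) {l m : Set Ω} {p q x y O : Ω} {a : G} {A : Subgroup G} (hl : l ∈ 𝓛)
  (hA : ∀ a ∈ A, a * a = 1) (h1 : ∀ a ∈ A, ∀ x ∈ l, a • x = x)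
  (h2 : ∀ p ∉ l, ∀ q ∉ l, ∃ a ∈ A, a • p = q) (h3 : ∀ p ∉ l, ∀ a ∈ A, a • p = p → a = 1)
include h hl hA h1 h2 h3

theorem nl (ha : a ∈ A) (hx : x ∉ l) : a • x ∉ l := fun e => hx (by
  rwa [← h1 a ha _ e, ← mul_smul, hA a ha, one_smul] at e)

theorem free {b : G} (ha : a ∈ A) (hb : b ∈ A) (hx : x ∉ l) (e : a • x = b • x) : a = b :=
  (inv_mul_eq_one.1 (h3 x hx _ (mul_mem (inv_mem hb) ha) (by rw [mul_smul, e, inv_smul_smul]))).symm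

theorem stab (ha : a ∈ A) (a1 : a ≠ 1) (hm : m ∈ 𝓛) (hx : x ∉ l) (x1 : x ∈ m) (x2 : a • x ∈ m) :
    ∀ y ∈ m, a • y ∈ m := fun y hy =>
  h.uniq _ (h.inv a m hm) _ hm (a • x) x (fun e => a1 (h3 x hx a ha e)) ⟨x, x1, rfl⟩
    ⟨_, x2, by simp only [← mul_smul, hA a ha, one_smul]⟩ x2 x1 ▸ (⟨y, hy, rfl⟩ : _ ∈ _ '' m)

theorem cen (ha : a ∈ A) (a1 : a ≠ 1) : ∃ p ∈ l, a ∈ ZZ 𝓛 A hA p := by
  obtain ⟨O, hO⟩ := h.off hl
  obtain ⟨k, hk, k1, k2⟩ := h.join O (a • O) fun e => a1 (h3 O hO a ha e.symm)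
  obtain ⟨p, p1, p2⟩ := h.meet hl hk
  refine ⟨p, p1, ha, fun m hm hp x hx => ?_⟩
  by_cases x1 : x ∈ l
  · rwa [h1 a ha x x1]
  obtain ⟨n, hn, n1, n2⟩ := h.join x (a • x) fun e => a1 (h3 x x1 a ha e.symm)
  suffices p ∈ n from h.uniq _ hn _ hm x p (by rintro rfl; exact x1 p1) n1 this hx hp ▸ n2
  by_contra h4
  obtain ⟨z, z1, z2⟩ := h.meet hk hn
  by_cases z3 : z ∈ l
  · exact hO (h.uniq _ hk _ hl z p (by rintro rfl; exact h4 z2) z1 p2 z3 p1 ▸ k1)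
  exact h4 (h.uniq _ hk _ hn (a • z) z (fun e => a1 (h3 z z3 a ha e))
    (h.stab hl hA h1 h2 h3 ha a1 hk hO k1 k2 z z1) z1 (h.stab hl hA h1 h2 h3 ha a1 hn x1 n1 n2 z z2) z2 ▸ p2)

theorem mem_ZZ (hp : p ∈ l) (hm : m ∈ 𝓛) (p1 : p ∈ m) (hx : x ∉ l) (x1 : x ∈ m) (ha : a ∈ A) :
    a • x ∈ m ↔ a ∈ ZZ 𝓛 A hA p := by
  refine ⟨fun e => ?_, fun e => e.2 m hm p1 x x1⟩
  by_cases a1 : a = 1
  · exact a1 ▸ one_mem _
  obtain ⟨q, q1, q2⟩ := h.cen hl hA h1 h2 h3 ha a1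
  obtain ⟨n, hn, n1, n2⟩ := h.join x q (by rintro rfl; exact hx q1)
  obtain rfl := h.uniq _ hn _ hm (a • x) x (fun e => a1 (h3 x hx a ha e)) (q2.2 n hn n2 x n1) n1 e x1
  by_contra h4
  exact hx (h.uniq _ hn _ hl p q (by rintro rfl; exact h4 q2) p1 n2 hp q1 ▸ n1)

theorem disj (hp : p ∈ l) (hq : q ∈ l) (e : p ≠ q) (a1 : a ∈ ZZ 𝓛 A hA p) (a2 : a ∈ ZZ 𝓛 A hA q) :
    a = 1 := by
  obtain ⟨O, hO⟩ := h.off hl
  obtain ⟨n, hn, n1, n2⟩ := h.join O p (by rintro rfl; exact hO hp)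
  obtain ⟨k, hk, k1, k2⟩ := h.join O q (by rintro rfl; exact hO hq)
  by_contra h4
  obtain rfl := h.uniq _ hn _ hk (a • O) O (fun e => h4 (h3 O hO a a1.1 e)) (a1.2 n hn n2 O n1) n1
    (a2.2 k hk k2 O k1) k1
  exact hO (h.uniq _ hn _ hl p q e n2 k2 hp hq ▸ n1)

theorem card_ZZ (hp : p ∈ l) : Nat.card (ZZ 𝓛 A hA p) = 4 := by
  haveI := h.fin
  obtain ⟨O, hO⟩ := h.off hl
  obtain ⟨n, hn, n1, n2⟩ := h.join O p (by rintro rfl; exact hO hp)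
  have h4 : Set.BijOn (fun a : G => a • O) (ZZ 𝓛 A hA p) (n \ {p}) := by
    refine ⟨fun a ha => ⟨ha.2 n hn n2 O n1, fun e => h.nl hl hA h1 h2 h3 ha.1 hO ((show a • O = p from e) ▸ hp)⟩,
      fun a ha b hb => h.free hl hA h1 h2 h3 ha.1 hb.1 hO, fun y hy => ?_⟩
    obtain ⟨a, ha, rfl⟩ := h2 O hO y fun e => hO (h.uniq _ hn _ hl y p hy.2 hy.1 n2 e hp ▸ n1)
    exact ⟨a, (h.mem_ZZ hl hA h1 h2 h3 hp hn n2 hO n1 ha).1 hy.1, rfl⟩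
  rw [show Nat.card (ZZ 𝓛 A hA p) = _ from Nat.card_congr h4.equiv, Nat.card_coe_set_eq,
    Set.ncard_sdiff_singleton_of_mem n2, h.five n hn]

theorem split (hp : p ∈ l) (hq : q ∈ l) (e : p ≠ q) (ha : a ∈ A) :
    ∃ z ∈ ZZ 𝓛 A hA p, z * a ∈ ZZ 𝓛 A hA q := by
  obtain ⟨O, hO⟩ := h.off hl
  have h4 := h.nl hl hA h1 h2 h3 ha hO
  obtain ⟨n, hn, n1, n2⟩ := h.join O q (by rintro rfl; exact hO hq)
  obtain ⟨k, hk, k1, k2⟩ := h.join (a • O) p (by rintro rfl; exact h4 hp)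
  obtain ⟨y, y1, y2⟩ := h.meet hn hk
  obtain ⟨z, hz, rfl⟩ := h2 _ h4 y fun y3 => by
    by_cases e1 : y = q
    · exact h4 (h.uniq _ hk _ hl p y (e1 ▸ e) k2 y2 hp y3 ▸ k1)
    · exact hO (h.uniq _ hn _ hl y q e1 y1 n2 y3 hq ▸ n1)
  exact ⟨z, (h.mem_ZZ hl hA h1 h2 h3 hp hk k2 h4 k1 hz).1 y2,
    (h.mem_ZZ hl hA h1 h2 h3 hq hn n2 hO n1 (mul_mem hz ha)).1 (by rwa [mul_smul])⟩

theorem alpha : ∃ α : F4 × F4 → G, (∀ u v, α (u + v) = α u * α v) ∧ (∀ u, α u ∈ A) ∧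
    (∀ u, α u = 1 → u = 0) ∧ (∀ a ∈ A, ∃ u, α u = a) ∧
    ∀ p ∈ l, ∀ u, u ≠ 0 → α u ∈ ZZ 𝓛 A hA p → ∀ v, α v ∈ ZZ 𝓛 A hA p ↔ u.2 * v.1 = u.1 * v.2 := by
  haveI := h.fin
  have hc : ∀ a ∈ A, ∀ b ∈ A, a * b = b * a := fun a ha b hb => by
    rw [← inv_eq_of_mul_eq_one_left (hA _ (mul_mem ha hb)), mul_inv_rev,
      inv_eq_of_mul_eq_one_left (hA _ ha), inv_eq_of_mul_eq_one_left (hA _ hb)]
  have D := fun {p q a} => h.disj hl hA h1 h2 h3 (p := p) (q := q) (a := a)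
  have S := fun {p q a} => h.split hl hA h1 h2 h3 (p := p) (q := q) (a := a)
  obtain ⟨p₁, p₂, p₃, p1, p2, p3, e12, e13, e23⟩ := (Set.two_lt_ncard_iff (s := l)).1
    (by rw [h.five l hl]; norm_num)
  have kf : ∀ (H : Type u) [Group H], Nat.card H = 4 → (∀ x : H, x * x = 1) → IsKleinFour H :=
    fun H _ a1 a2 => ⟨a1, by
      haveI := Nat.finite_of_card_ne_zero (a1 ▸ four_ne_zero : Nat.card H ≠ 0)
      haveI := Finite.one_lt_card_iff_nontrivial.1 (a1 ▸ by norm_num : 1 < Nat.card H)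
      haveI := Fact.mk Nat.prime_two
      exact (Monoid.exponent_eq_prime_iff Nat.prime_two).2 fun g hg =>
        orderOf_eq_prime (by rw [sq, a2]) hg⟩
  haveI := kf _ (h.card_ZZ hl hA h1 h2 h3 p1) fun x => Subtype.ext (hA _ x.2.1)
  haveI := kf (ULift.{u} (Multiplicative F4)) (by simp [F4.card_eq]) fun x =>
    ULift.ext _ _ (F4.add_self _)
  obtain ⟨φ⟩ := IsKleinFour.nonempty_mulEquiv (G₁ := ULift.{u} (Multiplicative F4))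
    (G₂ := ZZ 𝓛 A hA p₁)
  obtain ⟨β, b1, b2, b3, b4⟩ : ∃ β : F4 → G, (∀ x y, β (x + y) = β x * β y) ∧
      (∀ x, β x ∈ ZZ 𝓛 A hA p₁) ∧ (∀ x, β x = 1 → x = 0) ∧ ∀ a ∈ ZZ 𝓛 A hA p₁, ∃ x, β x = a :=
    ⟨fun x => φ ⟨.ofAdd x⟩, fun x y => congrArg Subtype.val (φ.map_mul ⟨.ofAdd x⟩ ⟨.ofAdd y⟩),
      fun x => (φ _).2, fun x e => congrArg ULift.down (φ.map_eq_one_iff.1 (Subtype.ext e)),
      fun a ha => ⟨(φ.symm ⟨a, ha⟩).down, congrArg Subtype.val (φ.apply_symm_apply ⟨a, ha⟩)⟩⟩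
  choose γ c1 c2 using fun x => S p2 p3 e23 (b2 x).1
  have c3 : ∀ x, ∀ z ∈ ZZ 𝓛 A hA p₂, z * β x ∈ ZZ 𝓛 A hA p₃ → z = γ x := fun x z z1 z2 =>
    mul_inv_eq_one.1 (D p2 p3 e23 (mul_mem z1 (inv_mem (c1 x))) (by
      simpa [mul_assoc] using mul_mem z2 (inv_mem (c2 x))))
  have c4 : ∀ x y, γ (x + y) = γ x * γ y := fun x y => (c3 _ _ (mul_mem (c1 x) (c1 y)) (by
    convert mul_mem (c2 x) (c2 y) using 1
    rw [b1, mul_assoc, mul_assoc, ← mul_assoc (γ y), hc _ (c1 y).1 _ (b2 x).1, mul_assoc])).symm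
  have b0 : β 0 = 1 := by simpa using b1 0 0
  have c0 : γ 0 = 1 := by simpa using c4 0 0
  have c5 : ∀ x, γ x = 1 → x = 0 := fun x e => b3 x (D p1 p3 e13 (b2 x) (by simpa [e] using c2 x))
  have d1 : ∀ u v : F4 × F4, β (u + v).1 * γ (u + v).2 = β u.1 * γ u.2 * (β v.1 * γ v.2) := fun u v => by
    rw [Prod.fst_add, Prod.snd_add, b1, c4, mul_assoc, mul_assoc, ← mul_assoc (β v.1),
      hc _ (b2 _).1 _ (c1 _).1, mul_assoc]
  have z1 : ∀ u : F4 × F4, β u.1 * γ u.2 ∈ ZZ 𝓛 A hA p₁ → u.2 = 0 := fun u e =>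
    c5 _ (D p1 p2 e12 ((mul_mem_cancel_left (b2 _)).1 e) (c1 _))
  have z2 : ∀ u : F4 × F4, β u.1 * γ u.2 ∈ ZZ 𝓛 A hA p₂ → u.1 = 0 := fun u e =>
    b3 _ (D p1 p2 e12 (b2 _) ((mul_mem_cancel_right (c1 _)).1 e))
  have z3 : ∀ u : F4 × F4, β u.1 * γ u.2 ∈ ZZ 𝓛 A hA p₃ → u.1 = u.2 := fun u e => by
    rw [← sub_add_cancel u.1 u.2, b1, mul_assoc, hc _ (b2 _).1 _ (c1 _).1] at e
    exact sub_eq_zero.1 (b3 _ (D p1 p3 e13 (b2 _) ((mul_mem_cancel_right (c2 _)).1 e)))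
  have d2 : ∀ u : F4 × F4, β u.1 * γ u.2 = 1 → u = 0 := fun u e =>
    Prod.ext (z2 u (e ▸ one_mem _)) (z1 u (e ▸ one_mem _))
  have d3 : ∀ a ∈ A, ∃ u : F4 × F4, β u.1 * γ u.2 = a := fun a ha => by
    obtain ⟨z, a1, a2⟩ := S p2 p1 e12.symm ha
    obtain ⟨x, a3⟩ := b4 _ a2
    obtain ⟨z', a4, a5⟩ := S p1 p3 e13 a1.1
    obtain ⟨y, rfl⟩ := b4 _ a4
    refine ⟨(x, y), ?_⟩
    rw [a3, ← c3 y z a1 (hc _ a4.1 _ a1.1 ▸ a5), hc _ a1.1 _ ha, mul_assoc, hA _ a1.1, mul_one]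
  refine ⟨fun u => β u.1 * γ u.2, d1, fun u => mul_mem (b2 _).1 (c1 _).1, d2, d3, fun p hp u u0 hu v => ?_⟩
  have f1 : {v : F4 × F4 | β v.1 * γ v.2 ∈ ZZ 𝓛 A hA p} ⊆ {v | u.2 * v.1 = u.1 * v.2} := fun v hv => by
    by_cases e1 : p = p₁
    · subst e1; simp [z1 u hu, z1 v hv]
    by_cases e2 : p = p₂
    · subst e2; simp [z2 u hu, z2 v hv]
    by_cases e3 : p = p₃
    · subst e3; simp [z3 u hu, z3 v hv]
    have : ∀ w : F4 × F4, β w.1 * γ w.2 ∈ ZZ 𝓛 A hA p → w = 0 ∨ w.1 ≠ 0 ∧ w.2 ≠ 0 ∧ w.1 ≠ w.2 :=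
      fun w hw => or_iff_not_imp_left.2 fun w0 =>
        ⟨fun e => w0 (d2 w (D hp p2 e2 hw (by rw [e, b0, one_mul]; exact c1 _))),
          fun e => w0 (d2 w (D hp p1 e1 hw (by rw [e, c0, mul_one]; exact b2 _))),
          fun e => w0 (d2 w (D hp p3 e3 hw (by rw [e, hc _ (b2 _).1 _ (c1 _).1]; exact c2 _)))⟩
    exact l_D1 u v (by simpa using ⟨this u hu, this v hv, this _ (d1 u v ▸ mul_mem hu hv)⟩)
  have f2 : Set.BijOn (fun v : F4 × F4 => β v.1 * γ v.2) {v | β v.1 * γ v.2 ∈ ZZ 𝓛 A hA p}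
      (ZZ 𝓛 A hA p) := ⟨fun _ => id, fun v _ w _ e => sub_eq_zero.1 (d2 _ (by
        have := d1 (v - w) w
        rw [sub_add_cancel, show β v.1 * γ v.2 = _ from e] at this
        exact right_eq_mul.1 this)), fun a ha => by
      obtain ⟨w, rfl⟩ := d3 a ha.1
      exact ⟨w, ha, rfl⟩⟩
  refine Set.ext_iff.1 (Set.eq_of_subset_of_ncard_le f1 ?_) v
  rw [← Nat.card_coe_set_eq {v : F4 × F4 | β v.1 * γ v.2 ∈ _}, Nat.card_congr f2.equiv,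
    show Nat.card (ZZ 𝓛 A hA p : Set G) = 4 from h.card_ZZ hl hA h1 h2 h3 hp, ← l_D2 u u0,
    ← Set.ncard_coe_finset]
  simp

end PL

end Cfsg.Agent.OC
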