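import Cfsg.Agent.OC.Def
import Cfsg.Agent.BS.Sz9

/-! Elements of order `q ± r + 1` in the Suzuki group. -/

set_option autoImplicit false
set_option linter.unusedSectionVars false

namespace Cfsg.Agent.OC

open Subgroup Matrix Cfsg.Lie Cfsg.Agent.H7 Cfsg.Agent.H7.SzA

open Polynomial in
theorem szt_range {F k : Type*} [Field F] [Fintype F] [Field k] (ι : F →+* k) {x : k}
    (hx : x ^ Fintype.card F = x) : ∃ s, ι s = x := by
  have h1 : Polynomial.Splits (X ^ Fintype.card F - X : F[X]) := by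
    rw [splits_iff_card_roots, FiniteField.roots_X_pow_card_sub_X, ← Finset.card_def, Finset.card_univ,
      FiniteField.X_pow_card_sub_X_natDegree_eq _ Fintype.one_lt_card]
  have := FiniteField.roots_X_pow_card_sub_X F ▸ h1.roots_map ι ▸ Multiset.mem_map (b := x)
  simpa [sub_eq_zero, FiniteField.X_pow_card_sub_X_ne_zero k (Fintype.one_lt_card (α := F)), hx] using this

theorem szt_mat {F : Type} [Field F] [Fintype F] [CharP F 2] {e : ℕ} (he : e ≠ 0) {b : F}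
    (hb : (b ^ e) ^ e = b ^ 2) : ∃ g : Sz F e,
      g.1.1 = !![b ^ e, b, 0, 1; b, 0, 1, 0; 0, 1, 0, 0; 1, 0, 0, 0] := by
  have h2 : (2 : F) = 0 := CharTwo.two_eq_zero
  refine ⟨⟨.mkOfDetNeZero !![b ^ e, b, 0, 1; b, 0, 1, 0; 0, 1, 0, 0; 1, 0, 0, 0] (by
    simp [det_succ_row_zero, Fin.sum_univ_succ, Fin.succAbove]), subset_closure ⟨mem_Sp4_iff.mpr ?_, ?_⟩⟩, rfl⟩
  · ext i j
    fin_cases i <;> fin_cases j <;> simp [J4, mul_apply, Fin.sum_univ_four, vecMul, dotProduct]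
    all_goals (ring_nf; reduce_mod_char!)
  · ext i j
    fin_cases i <;> fin_cases j <;> simp [star4_eq, he, hb, CharTwo.neg_eq, sq]

theorem szt_ord {F : Type} [Field F] [Fintype F] {n m : ℕ} (hF : Fintype.card F = 2 ^ (2 * n + 1))
    (hm : m ∣ (2 ^ (2 * n + 1)) ^ 2 + 1) (h3 : 3 ≤ m)
    (h : m = 2 ^ (2 * n + 1) + 2 ^ (n + 1) + 1 ∨ m + 2 ^ (n + 1) = 2 ^ (2 * n + 1) + 1) :
    ∃ g : Sz F (2 ^ (n + 1)), orderOf g = m := by
  haveI : CharP F 2 := by
    obtain ⟨p, hp⟩ := CharP.exists F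
    obtain ⟨k, h1, h2⟩ := FiniteField.card F p
    obtain rfl : p = 2 := (Nat.prime_dvd_prime_iff_eq h1 Nat.prime_two).1 (h1.dvd_of_dvd_pow
      (hF ▸ h2 ▸ dvd_pow_self p k.ne_zero))
    exact hp
  haveI : NeZero (m : F) := ⟨fun e => by
    have := ((CharP.cast_eq_zero_iff F 2 m).1 e).trans hm
    rw [← pow_mul, Nat.dvd_add_right (dvd_pow_self 2 (by omega))] at this
    omega⟩
  obtain ⟨E, _, _, ι, l, hl⟩ : ∃ (E : Type) (_ : Field E) (_ : CharP E 2) (_ : F →+* E) (l : E),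
      IsPrimitiveRoot l m := ⟨AlgebraicClosure F, inferInstance, inferInstance, algebraMap F _,
    HasEnoughRootsOfUnity.exists_primitiveRoot _ m⟩
  have h2 : (2 : E) = 0 := CharTwo.two_eq_zero
  have l0 : l ≠ 0 := hl.ne_zero (by omega)
  have fr : ∀ (k : ℕ) (x y : E), (x + y) ^ 2 ^ k = x ^ 2 ^ k + y ^ 2 ^ k := fun k x y =>
    add_pow_char_pow x y 2 k
  have rr : 2 ^ (n + 1) * 2 ^ (n + 1) = 2 ^ (2 * n + 1) * 2 := by ring
  have r0 : 2 ^ (n + 1) ≠ 0 := by positivity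
  have fq := fr (2 * n + 1)
  have f2 := fr (n + 1)
  have sj := (Finite.injective_iff_surjective (f := fun x : F => x ^ 2 ^ (n + 1))).1
    (iterateFrobenius F 2 (n + 1)).injective
  generalize 2 ^ (2 * n + 1) = q at *
  generalize 2 ^ (n + 1) = r at *
  obtain ⟨u, hu⟩ : ∃ u, u = l ^ q := ⟨_, rfl⟩
  have u0 : u ≠ 0 := hu ▸ pow_ne_zero _ l0
  have uq : u ^ q = l⁻¹ := by
    refine eq_inv_of_mul_eq_one_left ?_
    rw [hu, ← pow_mul, ← pow_succ, ← sq, (hl.pow_eq_one_iff_dvd _).2 hm]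
  have ur : u ^ r = (l ^ r) ^ q := by rw [hu, ← pow_mul, ← pow_mul, mul_comm]
  obtain ⟨τ, hτ⟩ := szt_range ι (x := l + l⁻¹ + u + u⁻¹) (by
    rw [hF, fq, fq, fq, inv_pow, inv_pow, uq, ← hu, inv_inv]; ring)
  obtain ⟨b, rfl⟩ := sj τ
  have hb : (b ^ r) ^ r = b ^ 2 := by
    rw [← pow_mul, rr, pow_mul, ← hF, FiniteField.pow_card]
  have e2 : ι b ^ 2 = (l + l⁻¹) * (u + u⁻¹) := by
    rw [← map_pow, ← hb, map_pow, hτ, f2, f2, f2, inv_pow, inv_pow, ur]
    have := hl.pow_eq_one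
    rcases h with h | h
    · have : l ^ r = (u * l)⁻¹ := eq_inv_of_mul_eq_one_right (by
        rw [← this, h, pow_succ, pow_add, ← hu]; ring)
      rw [this, inv_pow, mul_pow, uq, ← hu]; field_simp; ring
    · have : l ^ r = u * l := by
        rw [hu, ← pow_succ, ← h, pow_add, this, one_mul]
      rw [this, mul_pow, uq, ← hu]; field_simp; ring
  obtain ⟨g, hg⟩ := szt_mat r0 hb
  have ev : g.1.1.map ι *ᵥ ![l * (l ^ 2 + 1), ι b * l ^ 2, ι b * l, l ^ 2 + 1] =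
      l • ![l * (l ^ 2 + 1), ι b * l ^ 2, ι b * l, l ^ 2 + 1] := by
    rw [hg]
    simp only [] at hτ
    ext i
    fin_cases i <;> simp [mulVec, dotProduct, Fin.sum_univ_four, -map_pow, hτ]
    · have : ι b * (ι b * l ^ 2) = ι b ^ 2 * l ^ 2 := by ring
      rw [this, e2]; field_simp; ring_nf; reduce_mod_char!
    · ring_nf; reduce_mod_char!
    · ring
  have pw : ∀ d : ℕ, (g ^ d).1.1.map ι *ᵥ ![l * (l ^ 2 + 1), ι b * l ^ 2, ι b * l, l ^ 2 + 1] =
      l ^ d • ![l * (l ^ 2 + 1), ι b * l ^ 2, ι b * l, l ^ 2 + 1] := fun d => by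
    induction d with
    | zero => simp
    | succ d ih =>
      rw [pow_succ, coe_mul, Units.val_mul, Matrix.map_mul, ← mulVec_mulVec, ev, mulVec_smul, ih,
        smul_smul, mul_comm, pow_succ l d]
  have dv : m ∣ orderOf g := by
    have := congrFun (pw (orderOf g)) 3
    rw [pow_orderOf_eq_one] at this
    simp at this
    refine (hl.pow_eq_one_iff_dvd _).1 (mul_right_cancel₀ (fun e => ?_)
      (this.symm.trans (one_mul _).symm))
    have := Nat.le_of_dvd two_pos ((hl.pow_eq_one_iff_dvd 2).1 (by linear_combination e - h2))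
    omega
  exact ⟨g ^ (orderOf g / m), orderOf_pow_orderOf_div (orderOf_pos g).ne' dv⟩

end Cfsg.Agent.OC
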